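import Cfsg.Agent.Helper3.Fam.D5615
import Cfsg.Agent.Helper3.Fam.Trio
import Cfsg.Agent.Helper3.Fam.Orbits
import Cfsg.Agent.Helper3.Golay.OctStab

/-!
The fifteen trios through an octad: the stabilizer of the octad acts doubly transitively on
them, with kernel the pointwise stabilizer of the octad.
-/

set_option autoImplicit false

namespace Cfsg.Agent.Helper3

open Cfsg
open scoped Pointwise

/-- the trios through the standard octad -/
def otP : Set (Finset (Finset GolayPt)) := {T | T ∈ trios ∧ gO0 ∈ T}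

theorem mem_fSub_oct {g : Equiv.Perm GolayPt} :
    g ∈ fSub [q10AX] 0 ↔ g ∈ M24 ∧ g • gO0 = gO0 := by
  have e : gFam q10AX = {gO0} := gFam_singleton 5279
  constructor
  · intro h
    have hM : g ∈ M24 := h.1
    refine ⟨hM, ?_⟩
    have h2 := (mem_fSub_single hM).1 h
    rw [e, Finset.smul_finset_singleton, Finset.singleton_inj] at h2
    exact h2
  · rintro ⟨hM, h⟩
    refine (mem_fSub_single hM).2 ?_
    rw [e, Finset.smul_finset_singleton, h]

theorem otP_smul {a : Equiv.Perm GolayPt} (ha : a ∈ fSub [q10AX] 0)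
    {T : Finset (Finset GolayPt)} (hT : T ∈ otP) : a • T ∈ otP := by
  obtain ⟨hM, h0⟩ := mem_fSub_oct.1 ha
  refine ⟨smul_mem_trios hM hT.1, ?_⟩
  have h := Finset.smul_mem_smul_finset (a := a) hT.2
  rw [h0] at h
  exact h

theorem trX_otP : gFam trX ∈ otP := ⟨trX_mem, mem_gFam.2 ⟨5279, by decide, rfl⟩⟩

theorem otP_trans {T : Finset (Finset GolayPt)} (hT : T ∈ otP) :
    ∃ a ∈ fSub [q10AX] 0, a • gFam trX = T := by
  obtain ⟨hT1, hT2⟩ := hT
  have hc3 : T.card = 3 := hT1.1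
  obtain ⟨o', ho', hne⟩ := Finset.exists_mem_ne (by rw [hc3]; norm_num) gO0
  have hoct' := hT1.2.1 o' ho'
  have hd : Disjoint gO0 o' := hT1.2.2 gO0 hT2 o' ho' (Ne.symm hne)
  have hO2 : gSupp 1009728 ∈ octads := gOctB_mem (by decide +kernel)
  have hd0 : (gO0 ∩ gSupp 1009728).card = 0 := by
    show (gSupp 5279 ∩ gSupp 1009728).card = 0
    rw [← gSupp_and, gSupp_card]
    decide +kernel
  have hd1 : (gO0 ∩ o').card = 0 := by
    rw [Finset.card_eq_zero, ← Finset.disjoint_iff_inter_eq_empty]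
    exact hd
  obtain ⟨g, hg, hg0, hg2⟩ := octad_pair_trans gO0 (gSupp 1009728) o' gO0_mem hO2 hoct'
    (by rw [hd0, hd1])
  refine ⟨g, mem_fSub_oct.2 ⟨hg, hg0⟩, ?_⟩
  refine trio_det (smul_mem_trios hg trX_mem) hT1 (o := gO0) (o' := o') ?_ ?_ (Ne.symm hne)
    hT2 ho'
  · rw [Finset.mem_smul_finset]
    exact ⟨gSupp 5279, mem_gFam.2 ⟨5279, by decide, rfl⟩, hg0⟩
  · rw [Finset.mem_smul_finset]
    exact ⟨gSupp 1009728, mem_gFam.2 ⟨1009728, by decide, rfl⟩, hg2⟩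

theorem otP_eq : otP = fOrb [q10AX] (gFam q101X) := by
  ext T
  constructor
  · intro hT
    obtain ⟨a, ha, rfl⟩ := otP_trans hT
    exact ⟨a, ha, rfl⟩
  · rintro ⟨a, ha, rfl⟩
    exact otP_smul ha trX_otP

theorem otP_ncard : otP.ncard = 15 := by
  rw [otP_eq]
  exact q101_ok.1

theorem mem_H1 {h : Equiv.Perm GolayPt} (hh : h ∈ fSub [q101X, q10AX] 0) :
    h ∈ fSub [q10AX] 0 ∧ h • gFam trX = gFam trX :=
  ⟨⟨hh.1, fun A hA => hh.2.1 A (List.mem_cons_of_mem _ hA), hh.2.2⟩,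
    hh.2.1 q101X List.mem_cons_self⟩

theorem q151_otP : gFam q151X ∈ otP :=
  ⟨trioOK_mem (by decide +kernel), mem_gFam.2 ⟨5279, by decide, rfl⟩⟩

theorem q152_otP : gFam q152X ∈ otP :=
  ⟨trioOK_mem (by decide +kernel), mem_gFam.2 ⟨5279, by decide, rfl⟩⟩

theorem q153_otP : gFam q153X ∈ otP :=
  ⟨trioOK_mem (by decide +kernel), mem_gFam.2 ⟨5279, by decide, rfl⟩⟩

theorem q151_ne : gFam q151X ≠ gFam trX := by
  intro h
  have h1 := gFam_inj (gIncr_pairwise (by decide +kernel)) (gIncr_pairwise (by decide +kernel))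
    (by decide +kernel) (by decide +kernel) h
  exact absurd h1 (by decide)

theorem otP_orbit2 : fOrb [q101X, q10AX] (gFam q151X) = otP \ {gFam trX} := by
  have e : (otP \ {gFam trX}).ncard = 14 := by
    rw [Set.ncard_sdiff_singleton_of_mem trX_otP, otP_ncard]
  apply Set.eq_of_subset_of_ncard_le
  · rintro _ ⟨h, hh, rfl⟩
    obtain ⟨h0, hfix⟩ := mem_H1 hh
    refine ⟨otP_smul h0 q151_otP, ?_⟩
    intro hc
    have hc' : h • gFam q151X = gFam trX := Set.mem_singleton_iff.1 hc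
    apply q151_ne
    rw [← hfix] at hc'
    exact smul_left_cancel h hc'
  · exact le_of_eq (by rw [q151_ok.1, e])
  · exact Set.toFinite _

theorem otP_two_trans (T₁ T₂ T₁' T₂' : Finset (Finset GolayPt)) (h1 : T₁ ∈ otP)
    (h2 : T₂ ∈ otP) (h1' : T₁' ∈ otP) (h2' : T₂' ∈ otP) (hne : T₁ ≠ T₂) (hne' : T₁' ≠ T₂') :
    ∃ g ∈ fSub [q10AX] 0, g • T₁ = T₁' ∧ g • T₂ = T₂' := by
  obtain ⟨a, ha, rfl⟩ := otP_trans h1
  obtain ⟨a', ha', rfl⟩ := otP_trans h1'
  have hU : a⁻¹ • T₂ ∈ otP \ {gFam trX} := by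
    refine ⟨otP_smul ((fSub [q10AX] 0).inv_mem ha) h2, ?_⟩
    intro hc
    apply hne
    rw [← Set.mem_singleton_iff.1 hc, smul_inv_smul]
  have hU' : a'⁻¹ • T₂' ∈ otP \ {gFam trX} := by
    refine ⟨otP_smul ((fSub [q10AX] 0).inv_mem ha') h2', ?_⟩
    intro hc
    apply hne'
    rw [← Set.mem_singleton_iff.1 hc, smul_inv_smul]
  rw [← otP_orbit2] at hU hU'
  obtain ⟨h, hh, hU⟩ := hU
  obtain ⟨h', hh', hU'⟩ := hU'
  obtain ⟨h0, hfix⟩ := mem_H1 hh
  obtain ⟨h0', hfix'⟩ := mem_H1 hh'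
  have e : h⁻¹ • gFam trX = gFam trX := by
    rw [inv_smul_eq_iff, hfix]
  refine ⟨a' * h' * h⁻¹ * a⁻¹, ?_, ?_, ?_⟩
  · exact (fSub [q10AX] 0).mul_mem ((fSub [q10AX] 0).mul_mem ((fSub [q10AX] 0).mul_mem ha' h0')
      ((fSub [q10AX] 0).inv_mem h0)) ((fSub [q10AX] 0).inv_mem ha)
  · rw [mul_smul, inv_smul_smul, mul_smul, mul_smul, e, hfix']
  · rw [mul_smul, mul_smul, mul_smul, ← hU, inv_smul_smul, hU', smul_inv_smul]

/-! ### the kernel -/

theorem mem_K {g : Equiv.Perm GolayPt} :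
    g ∈ gSub [] 5279 ↔ g ∈ M24 ∧ ∀ p ∈ gO0, g p = p := by
  rw [mem_gSub]
  constructor
  · rintro ⟨h1, _, h3⟩
    exact ⟨h1, fun p hp => h3 p ((mem_gSupp _ _).1 hp)⟩
  · rintro ⟨h1, h2⟩
    exact ⟨h1, by simp, fun p hp => h2 p ((mem_gSupp _ _).2 hp)⟩

theorem octFix_word (g : Equiv.Perm GolayPt) (hg : g ∈ gSub [] 5279) :
    ∃ w ∈ octFixW, g = gWordPerm w := by
  obtain ⟨w, hw, _, hbot⟩ := level_word octFix_lev g hg
  have h1 : Nat.lor 5279 (Nat.shiftLeft 1 5) = 5311 := by decide +kernel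
  rw [h1, gSub_octFix_bot, Subgroup.mem_bot] at hbot
  refine ⟨w, hw, ?_⟩
  have h2 : g = gWordPerm w * ((gWordPerm w)⁻¹ * g) := (mul_inv_cancel_left _ _).symm
  rw [h2, hbot, mul_one]

theorem octFix_trX : octFixW.all (fun w => gSameL (gPullL w trX) trX) = true := by
  decide +kernel

theorem K_le_H0 {g : Equiv.Perm GolayPt} (hg : g ∈ gSub [] 5279) : g ∈ fSub [q10AX] 0 :=
  mem_fSub_oct.2 ⟨(mem_K.1 hg).1, gSub_octFix_smul hg⟩

theorem K_conj {a g : Equiv.Perm GolayPt} (ha : a ∈ fSub [q10AX] 0) (hg : g ∈ gSub [] 5279) :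
    a⁻¹ * g * a ∈ gSub [] 5279 := by
  obtain ⟨hM, hp⟩ := mem_K.1 hg
  obtain ⟨haM, ha0⟩ := mem_fSub_oct.1 ha
  refine mem_K.2 ⟨M24.mul_mem (M24.mul_mem (M24.inv_mem haM) hM) haM, ?_⟩
  intro p hp0
  have hap : a p ∈ gO0 := by
    have h := Finset.smul_mem_smul_finset (a := a) hp0
    rw [ha0] at h
    exact h
  rw [Equiv.Perm.mul_apply, Equiv.Perm.mul_apply, hp (a p) hap]
  exact perm_inv_apply a p

theorem K_fix_trX {g : Equiv.Perm GolayPt} (hg : g ∈ gSub [] 5279) :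
    g • gFam trX = gFam trX := by
  obtain ⟨w, hw, rfl⟩ := octFix_word g hg
  exact fam_inv_of_same (List.all_eq_true.1 octFix_trX w hw)

theorem K_fix_otP {g : Equiv.Perm GolayPt} (hg : g ∈ gSub [] 5279)
    {T : Finset (Finset GolayPt)} (hT : T ∈ otP) : g • T = T := by
  obtain ⟨a, ha, rfl⟩ := otP_trans hT
  have h := K_fix_trX (K_conj ha hg)
  rw [mul_smul, mul_smul, inv_smul_eq_iff] at h
  exact h

theorem K_le_H4 : gSub [] 5279 ≤ fSub [q153X, q152X, q151X, q101X, q10AX] 0 := by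
  intro g hg
  have h0 := K_le_H0 hg
  refine ⟨h0.1, ?_, ptFix_zero g⟩
  intro A hA
  simp only [List.mem_cons, List.not_mem_nil, or_false] at hA
  rcases hA with rfl | rfl | rfl | rfl | rfl
  · exact K_fix_otP hg q153_otP
  · exact K_fix_otP hg q152_otP
  · exact K_fix_otP hg q151_otP
  · exact K_fix_otP hg trX_otP
  · exact h0.2.1 q10AX List.mem_cons_self

theorem K_eq_H4 : gSub [] 5279 = fSub [q153X, q152X, q151X, q101X, q10AX] 0 :=
  Subgroup.eq_of_le_of_card_ge K_le_H4 (le_of_eq (by rw [q153_ok.2, octFix_card]))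

theorem otP_kernel {g : Equiv.Perm GolayPt} (hg : g ∈ fSub [q10AX] 0)
    (h : ∀ T ∈ otP, g • T = T) : g ∈ gSub [] 5279 := by
  rw [K_eq_H4]
  refine ⟨hg.1, ?_, ptFix_zero g⟩
  intro A hA
  simp only [List.mem_cons, List.not_mem_nil, or_false] at hA
  rcases hA with rfl | rfl | rfl | rfl | rfl
  · exact h _ q153_otP
  · exact h _ q152_otP
  · exact h _ q151_otP
  · exact h _ trX_otP
  · exact hg.2.1 q10AX List.mem_cons_self

/-! ### an arbitrary octad -/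

theorem otP_image (c : Equiv.Perm GolayPt) (hc : c ∈ M24) :
    {T : Finset (Finset GolayPt) | T ∈ trios ∧ c • gO0 ∈ T} = (fun T => c • T) '' otP := by
  ext T
  constructor
  · rintro ⟨h1, h2⟩
    exact ⟨c⁻¹ • T, ⟨smul_mem_trios (M24.inv_mem hc) h1,
      Finset.mem_inv_smul_finset_iff.2 h2⟩, smul_inv_smul c T⟩
  · rintro ⟨T', ⟨h1, h2⟩, rfl⟩
    exact ⟨smul_mem_trios hc h1, Finset.smul_mem_smul_finset h2⟩

theorem octad_trios_core (c : Equiv.Perm GolayPt) (hc : c ∈ M24) :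
    {T : Finset (Finset GolayPt) | T ∈ trios ∧ c • gO0 ∈ T}.ncard = 15 ∧
    (∀ T₁ T₂ T₁' T₂' : Finset (Finset GolayPt), T₁ ∈ trios → T₂ ∈ trios → T₁' ∈ trios →
      T₂' ∈ trios → c • gO0 ∈ T₁ → c • gO0 ∈ T₂ → c • gO0 ∈ T₁' → c • gO0 ∈ T₂' → T₁ ≠ T₂ →
      T₁' ≠ T₂' → ∃ g ∈ M24, g • (c • gO0) = c • gO0 ∧ g • T₁ = T₁' ∧ g • T₂ = T₂') ∧
    ∀ g ∈ M24, g • (c • gO0) = c • gO0 →
      ((∀ T ∈ trios, c • gO0 ∈ T → g • T = T) ↔ ∀ p ∈ c • gO0, g p = p) := by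
  have back : ∀ T : Finset (Finset GolayPt), T ∈ trios → c • gO0 ∈ T → c⁻¹ • T ∈ otP :=
    fun T h1 h2 => ⟨smul_mem_trios (M24.inv_mem hc) h1, Finset.mem_inv_smul_finset_iff.2 h2⟩
  refine ⟨?_, ?_, ?_⟩
  · rw [otP_image c hc, Set.ncard_image_of_injective _ (MulAction.injective c), otP_ncard]
  · intro T₁ T₂ T₁' T₂' t1 t2 t1' t2' m1 m2 m1' m2' hne hne'
    obtain ⟨g, hg, e1, e2⟩ := otP_two_trans (c⁻¹ • T₁) (c⁻¹ • T₂) (c⁻¹ • T₁') (c⁻¹ • T₂')
      (back _ t1 m1) (back _ t2 m2) (back _ t1' m1') (back _ t2' m2')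
      (fun h => hne (smul_left_cancel _ h)) (fun h => hne' (smul_left_cancel _ h))
    obtain ⟨hgM, hg0⟩ := mem_fSub_oct.1 hg
    refine ⟨c * g * c⁻¹, M24.mul_mem (M24.mul_mem hc hgM) (M24.inv_mem hc), ?_, ?_, ?_⟩
    · rw [mul_smul, mul_smul, inv_smul_smul, hg0]
    · rw [mul_smul, mul_smul, e1, smul_inv_smul]
    · rw [mul_smul, mul_smul, e2, smul_inv_smul]
  · intro g hgM hgo
    have hg0M : c⁻¹ * g * c ∈ M24 := M24.mul_mem (M24.mul_mem (M24.inv_mem hc) hgM) hc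
    have hg0 : c⁻¹ * g * c ∈ fSub [q10AX] 0 :=
      mem_fSub_oct.2 ⟨hg0M, (stab_bridge_core c g gO0).1 hgo⟩
    constructor
    · intro h p hp
      have hK : c⁻¹ * g * c ∈ gSub [] 5279 := by
        apply otP_kernel hg0
        intro T' hT'
        have h1 := h (c • T') (smul_mem_trios hc hT'.1) (Finset.smul_mem_smul_finset hT'.2)
        exact (stab_bridge_core c g T').1 h1
      obtain ⟨q, hq, rfl⟩ := Finset.mem_smul_finset.1 hp
      have h2 := (mem_K.1 hK).2 q hq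
      rw [Equiv.Perm.mul_apply, Equiv.Perm.mul_apply] at h2
      show g (c q) = c q
      calc g (c q) = c (c⁻¹ (g (c q))) := (perm_apply_inv c _).symm
        _ = c q := by rw [h2]
    · intro h T hT1 hT2
      have hK : c⁻¹ * g * c ∈ gSub [] 5279 := by
        refine mem_K.2 ⟨hg0M, ?_⟩
        intro q hq
        have h1 : g (c q) = c q := h (c q) (Finset.smul_mem_smul_finset hq)
        rw [Equiv.Perm.mul_apply, Equiv.Perm.mul_apply, h1]
        exact perm_inv_apply c q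
      have h2 := K_fix_otP hK (back T hT1 hT2)
      rw [mul_smul, mul_smul, smul_inv_smul] at h2
      exact smul_left_cancel _ h2

end Cfsg.Agent.Helper3
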