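import Cfsg.Agent.Helper3.Fam.D5549

/-!
The dual of the length-24 code, and the linear maps of the code that preserve, modulo the all-ones
word, the classes of the words under the group of the code: every such map agrees, modulo the
all-ones word, with a permutation of the group.
-/

set_option autoImplicit false

namespace Cfsg.Agent.Helper3

open Cfsg
open scoped Pointwise symmDiff

/-! ### arithmetic in `ZMod 2` -/

theorem dz_self : ∀ y : ZMod 2, y + y = 0 := by decide
theorem dz_l : ∀ x y z : ZMod 2, x + y = (z + x) + (z + y) := by decide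
theorem dz_g : ∀ p q r s t u : ZMod 2, p + q = s + t → p + r = s + u → q + r = t + u := by decide
theorem dz_dec : ∀ y : ZMod 2, y = if decide (y = 1) = true then 1 else 0 := by decide
theorem dz_eq : ∀ y z : ZMod 2, y + z = 0 → y = z := by decide
theorem dz_zero : ∀ y : ZMod 2, y = y + y → y = 0 := by decide
theorem dz_cases : ∀ y : ZMod 2, y = 0 ∨ y = 1 := by decide
theorem dz_i : ∀ p q s t : ZMod 2, p + q = s + t → p + s = 0 → q = t := by decide
theorem dz_j : ∀ p q s t : ZMod 2, p + q = s + t → p + s = 1 → q = t + 1 := by decide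
theorem dz_k : ∀ y : ZMod 2, y = y + 1 + 1 := by decide
theorem dz_c : ∀ y z : ZMod 2, (y + 1) + (z + 1) = y + z := by decide
theorem dz_e : ∀ p q r : ZMod 2, (p + q) + (p + r) = q + r := by decide
theorem dz_f : ∀ p s : ZMod 2, p + p = s + s := by decide
theorem dz_one : (1 : ZMod 2) + 1 = 0 := by decide
theorem dz_bool : ∀ b1 b2 : Bool, ((if b1 = true then (1 : ZMod 2) else 0) =
    (if b2 = true then 1 else 0) + 1) → (b1 = true ↔ ¬ b2 = true) := by decide

/-! ### generic lemmas on finite sets -/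

theorem du_card_filter_comp {α : Type*} [DecidableEq α] (S : Finset α) (ψ : α → α)
    (hmaps : ∀ m ∈ S, ψ m ∈ S) (hinj : Set.InjOn ψ (S : Set α)) (P : α → Prop) [DecidablePred P] :
    (S.filter (fun m => P (ψ m))).card = (S.filter P).card := by
  have himg : S.image ψ = S :=
    Finset.eq_of_subset_of_card_le (Finset.image_subset_iff.2 hmaps)
      (by rw [Finset.card_image_of_injOn hinj])
  calc (S.filter (fun m => P (ψ m))).card
      = ((S.filter (fun m => P (ψ m))).image ψ).card :=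
        (Finset.card_image_of_injOn (hinj.mono (Finset.coe_subset.2 (Finset.filter_subset _ _)))).symm
    _ = ((S.image ψ).filter P).card := by rw [Finset.filter_image]
    _ = (S.filter P).card := by rw [himg]

theorem du_two_other {α : Type*} [DecidableEq α] {P : Finset α} (hP : P.card = 2) {z y t : α}
    (hz : z ∈ P) (hy : y ∈ P) (ht : t ∈ P) (hyz : y ≠ z) (htz : t ≠ z) : y = t := by
  have h1 : (P.erase z).card = 1 := by rw [Finset.card_erase_of_mem hz, hP]
  exact Finset.card_le_one.1 (le_of_eq h1) y (Finset.mem_erase.2 ⟨hyz, hy⟩) t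
    (Finset.mem_erase.2 ⟨htz, ht⟩)

theorem du_inter_eq {α : Type*} [DecidableEq α] {P Q : Finset α} (h : (P ∩ Q).card = 1) {y t : α}
    (hy : y ∈ P) (hy' : y ∈ Q) (ht : t ∈ P) (ht' : t ∈ Q) : y = t :=
  Finset.card_le_one.1 (le_of_eq h) y (Finset.mem_inter.2 ⟨hy, hy'⟩) t (Finset.mem_inter.2 ⟨ht, ht'⟩)

theorem du_inter_ex {α : Type*} [DecidableEq α] {P Q : Finset α} (h : (P ∩ Q).card = 1) :
    ∃ y, y ∈ P ∧ y ∈ Q := by
  obtain ⟨y, hy⟩ := Finset.card_pos.1 (by rw [h]; exact Nat.one_pos)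
  exact ⟨y, (Finset.mem_inter.1 hy).1, (Finset.mem_inter.1 hy).2⟩

theorem du_star_three {α : Type*} [DecidableEq α] {P Q R S : Finset α} {z : α}
    (hPQ : (P ∩ Q).card = 1) (hPR : (P ∩ R).card = 1) (hQR : (Q ∩ R).card = 1)
    (hzP : z ∈ P) (hzQ : z ∈ Q) (hzR : z ∈ R) (hS : S.card = 2)
    (hSP : (S ∩ P).card = 1) (hSQ : (S ∩ Q).card = 1) (hSR : (S ∩ R).card = 1) : z ∈ S := by
  by_contra hzS
  obtain ⟨p, hpS, hpP⟩ := du_inter_ex hSP
  obtain ⟨q, hqS, hqQ⟩ := du_inter_ex hSQ
  obtain ⟨r, hrS, hrR⟩ := du_inter_ex hSR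
  have hpz : p ≠ z := fun h => hzS (by rw [← h]; exact hpS)
  have hqz : q ≠ z := fun h => hzS (by rw [← h]; exact hqS)
  have hpq : p ≠ q := fun h => hpz (du_inter_eq hPQ hpP (by rw [h]; exact hqQ) hzP hzQ)
  have hpr : p ≠ r := fun h => hpz (du_inter_eq hPR hpP (by rw [h]; exact hrR) hzP hzR)
  have hqr : q ≠ r := fun h => hqz (du_inter_eq hQR hqQ (by rw [h]; exact hrR) hzQ hzR)
  exact hqr (du_two_other hS hpS hqS hrS hpq.symm hpr.symm)

/-- a family of at least four sets of two elements, any two of them meeting in exactly one element,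
has a common element -/
theorem du_star_family {ι α : Type*} [DecidableEq α] (P : ι → Finset α) (I : Set ι)
    (i1 i2 i3 i4 : ι) (h1 : i1 ∈ I) (h2 : i2 ∈ I) (h3 : i3 ∈ I) (h4 : i4 ∈ I)
    (h12 : i1 ≠ i2) (h13 : i1 ≠ i3) (h14 : i1 ≠ i4) (h23 : i2 ≠ i3) (h24 : i2 ≠ i4)
    (h34 : i3 ≠ i4) (hc : ∀ i ∈ I, (P i).card = 2)
    (hi : ∀ i ∈ I, ∀ j ∈ I, i ≠ j → (P i ∩ P j).card = 1) :
    ∃ z, ∀ i ∈ I, z ∈ P i := by
  obtain ⟨z, hz1, hz2⟩ := du_inter_ex (hi i1 h1 i2 h2 h12)
  have key : ∀ j ∈ I, j ≠ i1 → j ≠ i2 → z ∈ P j → ∀ i ∈ I, z ∈ P i := by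
    intro j hj hj1 hj2 hzj i hiI
    by_cases e1 : i = i1
    · rw [e1]; exact hz1
    by_cases e2 : i = i2
    · rw [e2]; exact hz2
    by_cases e3 : i = j
    · rw [e3]; exact hzj
    exact du_star_three (hi i1 h1 i2 h2 h12) (hi i1 h1 j hj (Ne.symm hj1))
      (hi i2 h2 j hj (Ne.symm hj2)) hz1 hz2 hzj (hc i hiI)
      (hi i hiI i1 h1 e1) (hi i hiI i2 h2 e2) (hi i hiI j hj e3)
  by_cases hz3 : z ∈ P i3
  · exact ⟨z, key i3 h3 (Ne.symm h13) (Ne.symm h23) hz3⟩
  by_cases hz4 : z ∈ P i4
  · exact ⟨z, key i4 h4 (Ne.symm h14) (Ne.symm h24) hz4⟩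
  exfalso
  obtain ⟨y1, hy1, hy1'⟩ := du_inter_ex (hi i1 h1 i3 h3 h13)
  obtain ⟨y2, hy2, hy2'⟩ := du_inter_ex (hi i2 h2 i3 h3 h23)
  obtain ⟨t1, ht1, ht1'⟩ := du_inter_ex (hi i1 h1 i4 h4 h14)
  obtain ⟨t2, ht2, ht2'⟩ := du_inter_ex (hi i2 h2 i4 h4 h24)
  have hy1z : y1 ≠ z := fun h => hz3 (by rw [← h]; exact hy1')
  have hy2z : y2 ≠ z := fun h => hz3 (by rw [← h]; exact hy2')
  have ht1z : t1 ≠ z := fun h => hz4 (by rw [← h]; exact ht1')
  have ht2z : t2 ≠ z := fun h => hz4 (by rw [← h]; exact ht2')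
  have e1 : y1 = t1 := du_two_other (hc i1 h1) hz1 hy1 ht1 hy1z ht1z
  have e2 : y2 = t2 := du_two_other (hc i2 h2) hz2 hy2 ht2 hy2z ht2z
  have e3 : y1 = y2 := du_inter_eq (hi i3 h3 i4 h4 h34) hy1' (by rw [e1]; exact ht1') hy2'
    (by rw [e2]; exact ht2')
  exact hy1z (du_inter_eq (hi i1 h1 i2 h2 h12) hy1 (by rw [e3]; exact hy2) hz1 hz2)

theorem du_sum_symmDiff {α : Type*} [DecidableEq α] (S T : Finset α) (c : α → ZMod 2) :
    ∑ q ∈ S ∆ T, c q = ∑ q ∈ S, c q + ∑ q ∈ T, c q := by
  have key : ∀ A B : Finset α, ∑ x ∈ A ∩ B, c x + ∑ x ∈ A \ B, c x = ∑ x ∈ A, c x := by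
    intro A B
    have h := Finset.sum_sdiff (f := c) (Finset.inter_subset_left : A ∩ B ⊆ A)
    rw [Finset.sdiff_inter_self_left] at h
    rw [add_comm]; exact h
  have h1 := key S T
  have h2 := key T S
  have h3 : ∑ q ∈ S ∆ T, c q = ∑ q ∈ S \ T, c q + ∑ q ∈ T \ S, c q := by
    rw [symmDiff_def, Finset.sup_eq_union, Finset.sum_union disjoint_sdiff_sdiff]
  rw [h3, ← h1, ← h2, Finset.inter_comm T S]
  exact dz_l _ _ _

theorem du_card_inter {α : Type*} [DecidableEq α] {P P' W : Finset α} (hP : P.card = 2)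
    (hP' : P'.card = 2) (hW : W.card = 2) (h3 : P ∆ P' = W) : (P ∩ P').card = 1 := by
  have h4 := Finset.card_sdiff_add_card_inter P P'
  have h5 := Finset.card_sdiff_add_card_inter P' P
  have h6 : (P ∆ P').card = (P \ P').card + (P' \ P).card := by
    rw [symmDiff_def, Finset.sup_eq_union, Finset.card_union_of_disjoint disjoint_sdiff_sdiff]
  rw [h3, hW] at h6
  rw [Finset.inter_comm P' P] at h5
  omega

theorem du_symm3_sub {α : Type*} [DecidableEq α] (P P' W : Finset α) :
    (P ∆ P') ∆ W ⊆ P ∪ P' ∪ W := by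
  intro q hq
  simp only [Finset.mem_symmDiff, Finset.mem_union] at hq ⊢
  tauto

theorem du_exists_bits (n : ℕ) (β : ℕ → Bool) : ∃ s < 2 ^ n, ∀ i < n, s.testBit i = β i := by
  induction n with
  | zero => exact ⟨0, by norm_num, fun i hi => absurd hi (Nat.not_lt_zero i)⟩
  | succ n ih =>
    obtain ⟨s, hs, h⟩ := ih
    by_cases hb : β n = true
    · refine ⟨2 ^ n + s, by rw [pow_succ]; omega, fun i hi => ?_⟩
      rcases Nat.lt_succ_iff_lt_or_eq.1 hi with h' | h'
      · rw [Nat.testBit_two_pow_add_gt h' s]; exact h i h'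
      · rw [h', Nat.testBit_two_pow_add_eq, Nat.testBit_lt_two_pow hs, hb]; rfl
    · refine ⟨s, by rw [pow_succ]; omega, fun i hi => ?_⟩
      rcases Nat.lt_succ_iff_lt_or_eq.1 hi with h' | h'
      · exact h i h'
      · rw [h', Nat.testBit_lt_two_pow hs]
        cases hβ : β n
        · rfl
        · exact absurd hβ hb

theorem du_len4 {L : List ℕ} (h : L.length = 4) : ∃ a b c d, L = [a, b, c, d] := by
  rcases L with _ | ⟨a, _ | ⟨b, _ | ⟨c, _ | ⟨d, _ | ⟨e, t⟩⟩⟩⟩⟩
  · simp at h
  · simp at h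
  · simp at h
  · simp at h
  · exact ⟨a, b, c, d, rfl⟩
  · simp only [List.length_cons] at h; omega

/-! ### the pairing of masks with words -/

theorem du_sum_pts {M : Type*} [AddCommMonoid M] (f : GolayPt → M) :
    ∑ p : GolayPt, f p = ∑ i ∈ Finset.range 24, f (gPt i) := by
  have h := sum_golayPt (fun i => f (gPt i))
  simp only [gPt_gIdx] at h
  have h2 := Finset.sum_range_succ (fun i => f (gPt i)) 23
  rw [h]
  exact (h2.trans (add_comm _ _)).symm

/-- the pairing of a mask with a word -/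
def duDot (m : ℕ) (c : GolayPt → ZMod 2) : ZMod 2 := ∑ p, gDec m p * c p

theorem duDot_xor (a b : ℕ) (c : GolayPt → ZMod 2) :
    duDot (a ^^^ b) c = duDot a c + duDot b c := by
  unfold duDot
  rw [gDec_xor, ← Finset.sum_add_distrib]
  exact Finset.sum_congr rfl (fun p _ => by rw [Pi.add_apply, add_mul])

theorem duDot_zero (c : GolayPt → ZMod 2) : duDot 0 c = 0 := by
  unfold duDot
  rw [gDec_zero]
  exact Finset.sum_eq_zero (fun p _ => by rw [Pi.zero_apply, zero_mul])

theorem duDot_cw (k : ℕ) {c : GolayPt → ZMod 2} (hc : c ∈ golayCode) : duDot (gCw k) c = 0 :=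
  golay_orth _ _ (gCw_mem k) hc

theorem du_gDec_two_pow {i : ℕ} (hi : i < 24) (p : GolayPt) :
    gDec (2 ^ i) p = if p = gPt i then 1 else 0 := by
  have e : (i = gIdx p) ↔ (p = gPt i) := by
    constructor
    · intro h; rw [h, gPt_gIdx]
    · intro h; rw [h, gIdx_gPt hi]
  unfold gDec
  rw [Nat.testBit_two_pow]
  by_cases h : p = gPt i
  · rw [if_pos h, if_pos (decide_eq_true (e.2 h))]
  · rw [if_neg h, if_neg (fun h' => h (e.1 (of_decide_eq_true h')))]

theorem duDot_two_pow {i : ℕ} (hi : i < 24) (c : GolayPt → ZMod 2) :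
    duDot (2 ^ i) c = c (gPt i) := by
  unfold duDot
  have h : ∀ p : GolayPt, gDec (2 ^ i) p * c p = if p = gPt i then c p else 0 := by
    intro p
    rw [du_gDec_two_pow hi p]
    by_cases hp : p = gPt i
    · rw [if_pos hp, if_pos hp, one_mul]
    · rw [if_neg hp, if_neg hp, zero_mul]
  rw [Finset.sum_congr rfl (fun p _ => h p), Finset.sum_ite_eq' Finset.univ (gPt i) c,
    if_pos (Finset.mem_univ _)]

theorem duDot_shift (s : ℕ) (w : GolayPt → ZMod 2) :
    duDot (s <<< 12) w =
      ∑ i ∈ Finset.range 12, (if s.testBit i = true then 1 else 0) * w (gPt (12 + i)) := by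
  unfold duDot
  rw [du_sum_pts, show (24 : ℕ) = 12 + 12 from rfl, Finset.sum_range_add]
  have h1 : ∑ x ∈ Finset.range 12, gDec (s <<< 12) (gPt x) * w (gPt x) = 0 := by
    apply Finset.sum_eq_zero
    intro i hi
    have hi' := Finset.mem_range.1 hi
    have h2 : gDec (s <<< 12) (gPt i) = 0 := by
      unfold gDec
      rw [gIdx_gPt (by omega), Nat.testBit_shiftLeft]
      simp [show ¬ (12 ≤ i) by omega]
    rw [h2, zero_mul]
  rw [h1, zero_add]
  apply Finset.sum_congr rfl
  intro i hi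
  have hi' := Finset.mem_range.1 hi
  have h2 : gDec (s <<< 12) (gPt (12 + i)) = if s.testBit i = true then 1 else 0 := by
    unfold gDec
    rw [gIdx_gPt (by omega), Nat.testBit_shiftLeft]
    simp
  rw [h2]

/-- the value at a word of the functional given by a list of positions -/
def duVal (L : List ℕ) (c : GolayPt → ZMod 2) : ZMod 2 := (L.map (fun p => c (gPt p))).sum

theorem duVal_cons (a : ℕ) (L : List ℕ) (c : GolayPt → ZMod 2) :
    duVal (a :: L) c = c (gPt a) + duVal L c := by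
  unfold duVal
  rw [List.map_cons, List.sum_cons]

theorem duVal_one (L : List ℕ) : duVal L (fun _ => (1 : ZMod 2)) = (L.length : ZMod 2) := by
  induction L with
  | nil => simp [duVal]
  | cons a L ih =>
    rw [duVal_cons, ih, List.length_cons, Nat.cast_succ]
    exact add_comm _ _

theorem duDot_mask (L : List ℕ) (hL : ∀ p ∈ L, p < 24) (c : GolayPt → ZMod 2) :
    duDot (duMask L) c = duVal L c := by
  induction L with
  | nil => exact duDot_zero c
  | cons a L ih =>
    have h1 : duMask (a :: L) = 2 ^ a ^^^ duMask L := rfl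
    rw [h1, duDot_xor, duDot_two_pow (hL a List.mem_cons_self),
      ih (fun p hp => hL p (List.mem_cons_of_mem _ hp)), duVal_cons]

theorem duBit_eq (m p : ℕ) : duBit m p = m.testBit p := by
  unfold duBit
  rw [gBit_eq]
  cases m.testBit p <;> rfl

theorem duVal_gDec (L : List ℕ) (hL : ∀ p ∈ L, p < 24) (m : ℕ) :
    duVal L (gDec m) = if duTest L m = true then 1 else 0 := by
  induction L with
  | nil => rfl
  | cons a L ih =>
    have h2 : duTest (a :: L) m = Bool.xor (duBit m a) (duTest L m) := rfl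
    have h3 : gDec m (gPt a) = if duBit m a = true then 1 else 0 := by
      rw [duBit_eq]
      unfold gDec
      rw [gIdx_gPt (hL a List.mem_cons_self)]
    rw [duVal_cons, h2, h3, ih (fun p hp => hL p (List.mem_cons_of_mem _ hp))]
    cases duBit m a <;> cases duTest L m <;> decide

theorem duOct_nodup : octList.Nodup :=
  (gIncr_pairwise duOct_incr).imp (fun h => Nat.ne_of_lt h)

theorem duCnt_eq (L : List ℕ) (hL : ∀ p ∈ L, p < 24) :
    (octList.toFinset.filter (fun m => duVal L (gDec m) = 0)).card = duCnt L := by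
  have h1 : octList.toFinset.filter (fun m => duVal L (gDec m) = 0) =
      (octList.filter (fun m => !(duTest L m))).toFinset := by
    rw [List.toFinset_filter]
    apply Finset.filter_congr
    intro m _
    rw [duVal_gDec L hL m]
    cases duTest L m <;> decide
  rw [h1, List.toFinset_card_of_nodup (duOct_nodup.filter _)]
  unfold duCnt
  rw [List.countP_eq_length_filter]

theorem duPos_lt (r : ℕ) : ∀ p ∈ duPos r, p < 24 := by
  intro p hp
  unfold duPos at hp
  exact List.mem_range.1 (List.mem_filter.1 hp).1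

theorem duPos_nodup (r : ℕ) : (duPos r).Nodup := by
  unfold duPos
  exact List.Nodup.filter _ (by decide)

theorem duTab_get {s : ℕ} (hs : s < 4096) : duChk s (duEnt s) = true :=
  (gAllLt_iff _ _).1 duTab_ok s hs

theorem duChk_spec {s : ℕ} {L : List ℕ} (h : duChk s L = true) :
    gIsCw (Nat.xor (duMask L) (Nat.shiftLeft s 12)) = true ∧ L.length ≤ 4 := by
  unfold duChk at h
  rw [Bool.and_eq_true] at h
  exact ⟨h.1, Nat.le_of_ble_eq_true h.2⟩

/-! ### counting octads -/

theorem du_cnt_inv {σ : Equiv.Perm GolayPt} (hσ : σ ∈ M24) (F : (GolayPt → ZMod 2) → ZMod 2) :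
    (octList.toFinset.filter (fun m => F (fun p => gDec m (σ p)) = 0)).card =
      (octList.toFinset.filter (fun m => F (gDec m) = 0)).card := by
  have hex : ∀ m : ℕ, ∃ m' : ℕ, m ∈ octList →
      (m' ∈ octList ∧ (fun p => gDec m (σ p)) = gDec m') := by
    intro m
    by_cases hm : m ∈ octList
    · have hb : σ⁻¹ • gSupp m ∈ octads :=
        smul_mem_octads (M24.inv_mem hσ) (octList_mem_octads hm)
      obtain ⟨m', hm', he⟩ := (mem_octads_iff_list _).1 hb
      refine ⟨m', fun _ => ⟨hm', ?_⟩⟩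
      apply support₂_inj
      rw [support₂_gDec m', ← he]
      have h1 := smul_support₂ σ⁻¹ (gDec m)
      rw [support₂_gDec, inv_inv] at h1
      exact h1.symm
    · exact ⟨0, fun h => absurd h hm⟩
  choose ψ hψ using hex
  have hinj : Set.InjOn ψ (octList.toFinset : Set ℕ) := by
    intro m1 hm1 m2 hm2 he
    have hm1' : m1 ∈ octList := List.mem_toFinset.1 (Finset.mem_coe.1 hm1)
    have hm2' : m2 ∈ octList := List.mem_toFinset.1 (Finset.mem_coe.1 hm2)
    have h1 := (hψ m1 hm1').2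
    have h2 := (hψ m2 hm2').2
    rw [he] at h1
    have h3 : gDec m1 = gDec m2 := by
      funext p
      have h4 := congrFun (h1.trans h2.symm) (σ⁻¹ p)
      simp only [perm_apply_inv] at h4
      exact h4
    exact gDec_inj (octList_lt hm1') (octList_lt hm2') h3
  have hmaps : ∀ m ∈ octList.toFinset, ψ m ∈ octList.toFinset := fun m hm =>
    List.mem_toFinset.2 (hψ m (List.mem_toFinset.1 hm)).1
  have h1 : (octList.toFinset.filter (fun m => F (gDec (ψ m)) = 0)).card =
      (octList.toFinset.filter (fun m => F (gDec m) = 0)).card :=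
    du_card_filter_comp octList.toFinset ψ hmaps hinj (fun m => F (gDec m) = 0)
  rw [← h1]
  refine congrArg Finset.card ?_
  apply Finset.filter_congr
  intro m hm
  rw [(hψ m (List.mem_toFinset.1 hm)).2]

theorem du_pair_count (a b : GolayPt) (hab : a ≠ b) :
    (octList.toFinset.filter (fun m => gDec m a + gDec m b = 0)).card = 407 := by
  obtain ⟨σ, hσ, h0, h1⟩ := M24_trans2 (gPt 0) (gPt 1) a b (by decide) hab
  have h2 := du_cnt_inv hσ (duVal [0, 1])
  have h3 := duCnt_eq [0, 1] (by decide)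
  rw [duCnt2] at h3
  rw [← h3, ← h2]
  refine congrArg Finset.card ?_
  apply Finset.filter_congr
  intro m _
  have e0 : duVal [] (fun p => gDec m (σ p)) = 0 := rfl
  rw [duVal_cons, duVal_cons, e0, add_zero, h0, h1]

theorem du_cnt_four {L : List ℕ} (hlen : L.length = 4) (h24 : ∀ p ∈ L, p < 24) (hnd : L.Nodup) :
    duCnt L = 375 := by
  have hinj : ∀ i < 4, ∀ j < 4, gPt (L.getD i 0) = gPt (L.getD j 0) → i = j := by
    intro i hi j hj h
    have hi' : i < L.length := by rw [hlen]; exact hi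
    have hj' : j < L.length := by rw [hlen]; exact hj
    rw [List.getD_eq_getElem _ _ hi', List.getD_eq_getElem _ _ hj'] at h
    have h1 := congrArg gIdx h
    rw [gIdx_gPt (h24 _ (List.getElem_mem hi')), gIdx_gPt (h24 _ (List.getElem_mem hj'))] at h1
    have hI := List.nodup_iff_injective_get.1 hnd
    have h2 : (⟨i, hi'⟩ : Fin L.length) = ⟨j, hj'⟩ := hI h1
    exact congrArg Fin.val h2
  obtain ⟨σ, hσ, hσi⟩ := M24_trans 4 (by norm_num) (fun i => gPt (L.getD i 0)) hinj
  obtain ⟨p1, p2, p3, p4, rfl⟩ := du_len4 hlen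
  have h0 : σ (gPt 0) = gPt p1 := hσi 0 (by norm_num)
  have h1 : σ (gPt 1) = gPt p2 := hσi 1 (by norm_num)
  have h2 : σ (gPt 2) = gPt p3 := hσi 2 (by norm_num)
  have h3 : σ (gPt 3) = gPt p4 := hσi 3 (by norm_num)
  have h4 := du_cnt_inv hσ (duVal [0, 1, 2, 3])
  have h5 := duCnt_eq [0, 1, 2, 3] (by decide)
  rw [duCnt4] at h5
  rw [← duCnt_eq [p1, p2, p3, p4] h24, ← h5, ← h4]
  refine congrArg Finset.card ?_
  apply Finset.filter_congr
  intro m _
  have e0 : ∀ c : GolayPt → ZMod 2, duVal [] c = 0 := fun _ => rfl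
  rw [duVal_cons, duVal_cons, duVal_cons, duVal_cons, duVal_cons, duVal_cons, duVal_cons,
    duVal_cons, e0, e0, h0, h1, h2, h3]

/-! ### representation of the linear functionals on the code -/

theorem du_gCw_induction (Q : (GolayPt → ZMod 2) → Prop) (h0 : Q 0)
    (hadd : ∀ v w, Q v → Q w → Q (v + w)) (hb : ∀ i < 12, Q (gDec (gBasis i))) (k : ℕ) :
    Q (gDec (gCw k)) := by
  have hsel : ∀ i < 12, Q (gDec (gSel k i (gBasis i))) := by
    intro i hi
    rcases gSel_cases k i (gBasis i) with h' | h'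
    · rw [h', gDec_zero]; exact h0
    · rw [h']; exact hb i hi
  have e : gCw k = gSel k 0 (gBasis 0) ^^^ (gSel k 1 (gBasis 1) ^^^ (gSel k 2 (gBasis 2) ^^^
      (gSel k 3 (gBasis 3) ^^^ (gSel k 4 (gBasis 4) ^^^ (gSel k 5 (gBasis 5) ^^^
      (gSel k 6 (gBasis 6) ^^^ (gSel k 7 (gBasis 7) ^^^ (gSel k 8 (gBasis 8) ^^^
      (gSel k 9 (gBasis 9) ^^^ (gSel k 10 (gBasis 10) ^^^ gSel k 11 (gBasis 11))))))))))) := rfl
  rw [e]
  simp only [gDec_xor]
  exact hadd _ _ (hsel 0 (by norm_num)) (hadd _ _ (hsel 1 (by norm_num))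
    (hadd _ _ (hsel 2 (by norm_num)) (hadd _ _ (hsel 3 (by norm_num))
    (hadd _ _ (hsel 4 (by norm_num)) (hadd _ _ (hsel 5 (by norm_num))
    (hadd _ _ (hsel 6 (by norm_num)) (hadd _ _ (hsel 7 (by norm_num))
    (hadd _ _ (hsel 8 (by norm_num)) (hadd _ _ (hsel 9 (by norm_num))
    (hadd _ _ (hsel 10 (by norm_num)) (hsel 11 (by norm_num))))))))))))

/-- the basis words as elements of the code -/
def duB (i : ℕ) : ↥golayCode := ⟨gDec (gCw (2 ^ i)), gCw_mem _⟩

theorem du_rep (g : ↥golayCode → ZMod 2) (hadd : ∀ c c', g (c + c') = g c + g c')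
    (c : ↥golayCode) :
    g c = ∑ i ∈ Finset.range 12, g (duB i) * (c : GolayPt → ZMod 2) (gPt (12 + i)) := by
  have h0 : g 0 = 0 := by
    have h := hadd 0 0
    rw [add_zero] at h
    exact dz_zero _ h
  obtain ⟨k, _, hc⟩ := (mem_golayCode_iff _).1 c.2
  have key : ∃ h : gDec (gCw k) ∈ golayCode, g ⟨gDec (gCw k), h⟩ =
      ∑ i ∈ Finset.range 12, g (duB i) * gDec (gCw k) (gPt (12 + i)) := by
    refine du_gCw_induction (fun v => ∃ h : v ∈ golayCode, g ⟨v, h⟩ =
      ∑ i ∈ Finset.range 12, g (duB i) * v (gPt (12 + i))) ?_ ?_ ?_ k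
    · refine ⟨Submodule.zero_mem _, ?_⟩
      have e : (⟨0, Submodule.zero_mem _⟩ : ↥golayCode) = 0 := rfl
      rw [e, h0]
      exact (Finset.sum_eq_zero (fun i _ => by rw [Pi.zero_apply, mul_zero])).symm
    · rintro v w ⟨hv, ev⟩ ⟨hw, ew⟩
      refine ⟨Submodule.add_mem _ hv hw, ?_⟩
      have e : (⟨v + w, Submodule.add_mem _ hv hw⟩ : ↥golayCode) = ⟨v, hv⟩ + ⟨w, hw⟩ := rfl
      rw [e, hadd, ev, ew, ← Finset.sum_add_distrib]
      exact Finset.sum_congr rfl (fun i _ => by rw [Pi.add_apply, mul_add])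
    · intro i hi
      refine ⟨gBasis_mem i hi, ?_⟩
      have e : (⟨gDec (gBasis i), gBasis_mem i hi⟩ : ↥golayCode) = duB i :=
        Subtype.ext (congrArg gDec (duCw_two_pow i hi).symm)
      rw [e, Finset.sum_eq_single i]
      · rw [duBasis_hi i hi i hi, if_pos rfl, mul_one]
      · intro j hj hji
        rw [duBasis_hi i hi j (Finset.mem_range.1 hj), if_neg (Ne.symm hji), mul_zero]
      · intro h; exact absurd (Finset.mem_range.2 hi) h
  obtain ⟨h, e⟩ := key
  have hc' : c = ⟨gDec (gCw k), h⟩ := Subtype.ext hc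
  rw [hc']
  exact e

/-! ### the code is its own dual -/

theorem du_self_dual (v : GolayPt → ZMod 2) (hv : ∀ c ∈ golayCode, ∑ q, v q * c q = 0) :
    v ∈ golayCode := by
  obtain ⟨cv, hcv_def⟩ : ∃ cv : GolayPt → ZMod 2,
      cv = ∑ i ∈ Finset.range 12, v (gPt (12 + i)) • gDec (gBasis i) := ⟨_, rfl⟩
  have hcv : cv ∈ golayCode := by
    rw [hcv_def]
    exact Submodule.sum_mem _ (fun i hi =>
      Submodule.smul_mem _ _ (gBasis_mem i (Finset.mem_range.1 hi)))
  have hcv_hi : ∀ j < 12, cv (gPt (12 + j)) = v (gPt (12 + j)) := by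
    intro j hj
    rw [hcv_def, Finset.sum_apply, Finset.sum_eq_single j]
    · rw [Pi.smul_apply, smul_eq_mul, duBasis_hi j hj j hj, if_pos rfl, mul_one]
    · intro i hi hij
      rw [Pi.smul_apply, smul_eq_mul, duBasis_hi i (Finset.mem_range.1 hi) j hj, if_neg hij,
        mul_zero]
    · intro h; exact absurd (Finset.mem_range.2 hj) h
  have hz_orth : ∀ c ∈ golayCode, ∑ q, (v q + cv q) * c q = 0 := by
    intro c hc
    have h1 := hv c hc
    have h2 := golay_orth cv c hcv hc
    have h3 : ∑ q, (v q + cv q) * c q = ∑ q, v q * c q + ∑ q, cv q * c q := by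
      rw [← Finset.sum_add_distrib]
      exact Finset.sum_congr rfl (fun q _ => add_mul _ _ _)
    rw [h3, h1, h2, add_zero]
  have hz_hi : ∀ j < 12, v (gPt (12 + j)) + cv (gPt (12 + j)) = 0 := by
    intro j hj
    rw [hcv_hi j hj]
    exact dz_self _
  have hz_lo : ∀ j < 12, v (gPt j) + cv (gPt j) = 0 := by
    intro j hj
    have h1 := hz_orth _ (gCw_mem (duIdx j))
    rw [du_sum_pts, Finset.sum_eq_single j] at h1
    · rw [duDual_lo j hj j hj, if_pos rfl, mul_one] at h1
      exact h1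
    · intro i hi hij
      by_cases hi12 : i < 12
      · rw [duDual_lo j hj i hi12, if_neg (Ne.symm hij), mul_zero]
      · have hi24 := Finset.mem_range.1 hi
        have e : i = 12 + (i - 12) := by omega
        rw [e, hz_hi (i - 12) (by omega), zero_mul]
    · intro h; exact absurd (Finset.mem_range.2 (by omega)) h
  have hz0 : ∀ q : GolayPt, v q + cv q = 0 := by
    intro q
    have h24 := gIdx_lt q
    have e := gPt_gIdx q
    by_cases h : gIdx q < 12
    · have h1 := hz_lo _ h
      rw [e] at h1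
      exact h1
    · have h1 := hz_hi (gIdx q - 12) (by omega)
      rw [show 12 + (gIdx q - 12) = gIdx q by omega, e] at h1
      exact h1
  have hveq : v = cv := funext (fun q => dz_eq _ _ (hz0 q))
  rw [hveq]
  exact hcv

/-- the dual of the code has no nonzero word of weight less than `8` -/
theorem du_min (S : Finset GolayPt) (hS : S.card < 8)
    (h : ∀ c ∈ golayCode, ∑ q ∈ S, c q = 0) : S = ∅ := by
  have hv : (fun q => if q ∈ S then (1 : ZMod 2) else 0) ∈ golayCode := by
    apply du_self_dual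
    intro c hc
    have e : ∑ q, (if q ∈ S then (1 : ZMod 2) else 0) * c q = ∑ q ∈ S, c q := by
      simp only [ite_mul, one_mul, zero_mul]
      rw [Finset.sum_ite_mem, Finset.univ_inter]
    exact e.trans (h c hc)
  have hn := golay_hammingNorm _ hv
  have hcard : hammingNorm (fun q => if q ∈ S then (1 : ZMod 2) else 0) = S.card := by
    rw [hammingNorm_eq_card_support₂]
    refine congrArg Finset.card ?_
    ext q
    simp [support₂]
  rw [hcard] at hn
  apply Finset.card_eq_zero.1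
  omega

theorem du_inter {P P' W : Finset GolayPt} (hP : P.card = 2) (hP' : P'.card = 2)
    (hW : W.card = 2)
    (h : ∀ c ∈ golayCode, ∑ q ∈ P, c q + ∑ q ∈ P', c q = ∑ q ∈ W, c q) :
    (P ∩ P').card = 1 := by
  have h1 : ∀ c ∈ golayCode, ∑ q ∈ (P ∆ P') ∆ W, c q = 0 := by
    intro c hc
    rw [du_sum_symmDiff, du_sum_symmDiff, h c hc]
    exact dz_self _
  have hcard : ((P ∆ P') ∆ W).card < 8 := by
    have h2 := Finset.card_le_card (du_symm3_sub P P' W)
    have h3 := Finset.card_union_le (P ∪ P') W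
    have h4 := Finset.card_union_le P P'
    omega
  have h2 := du_min _ hcard h1
  have h3 : P ∆ P' = W := symmDiff_eq_bot.1 (by rw [Finset.bot_eq_empty]; exact h2)
  exact du_card_inter hP hP' hW h3

/-! ### linear maps of the code -/

theorem duOne_mem : (fun _ => (1 : ZMod 2)) ∈ golayCode := by
  unfold golayCode
  exact Submodule.subset_span (Set.mem_union_right _ (Set.mem_singleton_iff.2 rfl))

/-- the all-ones word as an element of the code -/
def duE : ↥golayCode := ⟨fun _ => (1 : ZMod 2), duOne_mem⟩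

theorem duE_coe : ((duE : ↥golayCode) : GolayPt → ZMod 2) = fun _ => (1 : ZMod 2) := rfl

theorem duOct_isCw {m : ℕ} (hm : m ∈ octList) : gIsCw m = true := by
  have h := List.all_eq_true.1 octList_sound_check m hm
  simp only [Bool.and_eq_true] at h
  exact h.1.2

theorem duOct_popc {m : ℕ} (hm : m ∈ octList) : gPopc m = 8 := by
  have h := List.all_eq_true.1 octList_sound_check m hm
  simp only [Bool.and_eq_true] at h
  exact Nat.eq_of_beq_eq_true h.2

/-- the word of a mask as an element of the code (zero for the masks that are not codewords) -/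
def duW (m : ℕ) : ↥golayCode := if h : gIsCw m = true then ⟨gDec m, gIsCw_mem h⟩ else 0

theorem duW_coe {m : ℕ} (hm : m ∈ octList) :
    ((duW m : ↥golayCode) : GolayPt → ZMod 2) = gDec m := by
  unfold duW
  rw [dif_pos (duOct_isCw hm)]

/-- the image of a word, as a word -/
def duX (x : ↥golayCode ≃ₗ[ZMod 2] ↥golayCode) (c : ↥golayCode) : GolayPt → ZMod 2 :=
  ((x c : ↥golayCode) : GolayPt → ZMod 2)

theorem duX_add (x : ↥golayCode ≃ₗ[ZMod 2] ↥golayCode) (c c' : ↥golayCode) :
    duX x (c + c') = duX x c + duX x c' :=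
  congrArg Subtype.val (map_add x c c')

theorem du_oct (x : ↥golayCode ≃ₗ[ZMod 2] ↥golayCode)
    (hO : ∀ c : ↥golayCode, ∃ σ ∈ M24, duX x c = (fun p => (c : GolayPt → ZMod 2) (σ.symm p)) ∨
      duX x c = (fun p => (c : GolayPt → ZMod 2) (σ.symm p)) + fun _ => (1 : ZMod 2))
    {m : ℕ} (hm : m ∈ octList) :
    ∃ m' ∈ octList, duX x (duW m) = gDec m' ∨
      duX x (duW m) = gDec m' + fun _ => (1 : ZMod 2) := by
  obtain ⟨σ, hσ, h⟩ := hO (duW m)
  have hb : σ • gSupp m ∈ octads := smul_mem_octads hσ (octList_mem_octads hm)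
  obtain ⟨m', hm', he⟩ := (mem_octads_iff_list _).1 hb
  have hfun : (fun p => ((duW m : ↥golayCode) : GolayPt → ZMod 2) (σ.symm p)) = gDec m' := by
    apply support₂_inj
    rw [duW_coe hm, support₂_gDec m']
    have h1 := smul_support₂ σ (gDec m)
    rw [support₂_gDec] at h1
    rw [← he]
    exact h1.symm
  refine ⟨m', hm', ?_⟩
  rw [hfun] at h
  exact h

theorem du_oct_compl {m1 m2 : ℕ} (h1 : m1 ∈ octList) (h2 : m2 ∈ octList)
    (h : gDec m1 = gDec m2 + fun _ => (1 : ZMod 2)) : False := by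
  have e : gSupp m1 = (gSupp m2)ᶜ := by
    ext p
    rw [Finset.mem_compl, mem_gSupp, mem_gSupp]
    have hp : gDec m1 p = gDec m2 p + 1 := congrFun h p
    unfold gDec at hp
    exact dz_bool _ _ hp
  have c1 : (gSupp m1).card = 8 := by rw [gSupp_card, duOct_popc h1]
  have c2 : (gSupp m2).card = 8 := by rw [gSupp_card, duOct_popc h2]
  have c3 : Fintype.card GolayPt = 24 := by rw [Fintype.card_option, ZMod.card]
  rw [e, Finset.card_compl, c2, c3] at c1
  omega

theorem du_count (x : ↥golayCode ≃ₗ[ZMod 2] ↥golayCode)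
    (hE : ∀ e : ↥golayCode, (e : GolayPt → ZMod 2) = (fun _ => (1 : ZMod 2)) → x e = e)
    (hO : ∀ c : ↥golayCode, ∃ σ ∈ M24, duX x c = (fun p => (c : GolayPt → ZMod 2) (σ.symm p)) ∨
      duX x c = (fun p => (c : GolayPt → ZMod 2) (σ.symm p)) + fun _ => (1 : ZMod 2))
    (a b : GolayPt) :
    (octList.toFinset.filter (fun m => duX x (duW m) a + duX x (duW m) b = 0)).card =
      (octList.toFinset.filter (fun m => gDec m a + gDec m b = 0)).card := by
  have hex : ∀ m : ℕ, ∃ m' : ℕ, m ∈ octList → (m' ∈ octList ∧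
      (duX x (duW m) = gDec m' ∨ duX x (duW m) = gDec m' + fun _ => (1 : ZMod 2))) := by
    intro m
    by_cases hm : m ∈ octList
    · obtain ⟨m', hm', h⟩ := du_oct x hO hm
      exact ⟨m', fun _ => ⟨hm', h⟩⟩
    · exact ⟨0, fun h => absurd h hm⟩
  choose ψ hψ using hex
  have hval : ∀ m ∈ octList,
      duX x (duW m) a + duX x (duW m) b = gDec (ψ m) a + gDec (ψ m) b := by
    intro m hm
    rcases (hψ m hm).2 with h | h
    · rw [h]
    · rw [h]
      exact dz_c _ _
  have hinj : Set.InjOn ψ (octList.toFinset : Set ℕ) := by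
    intro m1 hm1 m2 hm2 he
    have hm1' : m1 ∈ octList := List.mem_toFinset.1 (Finset.mem_coe.1 hm1)
    have hm2' : m2 ∈ octList := List.mem_toFinset.1 (Finset.mem_coe.1 hm2)
    have hcase : duX x (duW m1) = duX x (duW m2) ∨
        duX x (duW m1) = duX x (duW m2) + fun _ => (1 : ZMod 2) := by
      have h1 := (hψ m1 hm1').2
      have h2 := (hψ m2 hm2').2
      rw [he] at h1
      rcases h1 with h1 | h1 <;> rcases h2 with h2 | h2
      · left; rw [h1, h2]
      · right; rw [h1, h2]; funext p; exact dz_k _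
      · right; rw [h1, h2]
      · left; rw [h1, h2]
    rcases hcase with hc | hc
    · have h3 : x (duW m1) = x (duW m2) := Subtype.ext hc
      have h4 : duW m1 = duW m2 := x.injective h3
      have h5 : gDec m1 = gDec m2 := by rw [← duW_coe hm1', ← duW_coe hm2', h4]
      exact gDec_inj (octList_lt hm1') (octList_lt hm2') h5
    · exfalso
      have h3 : x (duW m1) = x (duW m2 + duE) := by
        apply Subtype.ext
        rw [map_add, hE duE duE_coe, Submodule.coe_add, duE_coe]
        exact hc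
      have h4 : duW m1 = duW m2 + duE := x.injective h3
      have h5 : gDec m1 = gDec m2 + fun _ => (1 : ZMod 2) := by
        have e1 := congrArg Subtype.val h4
        rw [duW_coe hm1'] at e1
        have e2 : ((duW m2 + duE : ↥golayCode) : GolayPt → ZMod 2) =
            gDec m2 + fun _ => (1 : ZMod 2) := by
          rw [Submodule.coe_add, duW_coe hm2', duE_coe]
        exact e1.trans e2
      exact du_oct_compl hm1' hm2' h5
  have hmaps : ∀ m ∈ octList.toFinset, ψ m ∈ octList.toFinset := fun m hm =>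
    List.mem_toFinset.2 (hψ m (List.mem_toFinset.1 hm)).1
  have h1 : (octList.toFinset.filter (fun m => gDec (ψ m) a + gDec (ψ m) b = 0)).card =
      (octList.toFinset.filter (fun m => gDec m a + gDec m b = 0)).card :=
    du_card_filter_comp octList.toFinset ψ hmaps hinj (fun m => gDec m a + gDec m b = 0)
  rw [← h1]
  refine congrArg Finset.card ?_
  apply Finset.filter_congr
  intro m hm
  rw [hval m (List.mem_toFinset.1 hm)]

theorem du_pair_fun (g : ↥golayCode → ZMod 2) (hadd : ∀ c c', g (c + c') = g c + g c')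
    (hone : ∀ e : ↥golayCode, (e : GolayPt → ZMod 2) = (fun _ => (1 : ZMod 2)) → g e = 0)
    (hcnt : (octList.toFinset.filter (fun m => g (duW m) = 0)).card = 407) :
    ∃ p q, p < 24 ∧ q < 24 ∧ p ≠ q ∧ ∀ c : ↥golayCode,
      g c = (c : GolayPt → ZMod 2) (gPt p) + (c : GolayPt → ZMod 2) (gPt q) := by
  obtain ⟨s, hs, hbits⟩ := du_exists_bits 12 (fun i => decide (g (duB i) = 1))
  have hs' : s < 4096 := lt_of_lt_of_eq hs (by norm_num)
  have hγ : ∀ i < 12, g (duB i) = if s.testBit i = true then 1 else 0 := by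
    intro i hi
    rw [hbits i hi]
    exact dz_dec _
  have hg : ∀ c : ↥golayCode, g c = duDot (s <<< 12) (c : GolayPt → ZMod 2) := by
    intro c
    rw [du_rep g hadd c, duDot_shift]
    exact Finset.sum_congr rfl (fun i hi => by rw [hγ i (Finset.mem_range.1 hi)])
  obtain ⟨L, hLdef⟩ : ∃ L : List ℕ, L = duEnt s := ⟨_, rfl⟩
  have hchk : duChk s L = true := by rw [hLdef]; exact duTab_get hs'
  have hnd : L.Nodup := by rw [hLdef]; exact duPos_nodup _
  have h24 : ∀ p ∈ L, p < 24 := by rw [hLdef]; exact duPos_lt _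
  obtain ⟨hcw, hshape⟩ := duChk_spec hchk
  have hmask : ∀ c : ↥golayCode, duDot (duMask L) (c : GolayPt → ZMod 2) =
      duDot (s <<< 12) (c : GolayPt → ZMod 2) := by
    intro c
    have e : gCw (Nat.shiftRight (Nat.xor (duMask L) (Nat.shiftLeft s 12)) 12) =
        duMask L ^^^ (s <<< 12) := Nat.eq_of_beq_eq_true hcw
    have h0 : duDot (duMask L ^^^ (s <<< 12)) (c : GolayPt → ZMod 2) = 0 := by
      rw [← e]; exact duDot_cw _ c.2
    rw [duDot_xor] at h0
    exact dz_eq _ _ h0
  have hg2 : ∀ c : ↥golayCode, g c = duVal L (c : GolayPt → ZMod 2) := by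
    intro c
    rw [hg c, ← hmask c, duDot_mask L h24]
  have hlen : L.length % 2 = 0 := by
    have h1 := hone duE duE_coe
    rw [hg2 duE, duE_coe, duVal_one] at h1
    have h4 := (ZMod.natCast_eq_zero_iff _ _).1 h1
    omega
  have hcntL : duCnt L = 407 := by
    rw [← duCnt_eq L h24, ← hcnt]
    refine congrArg Finset.card ?_
    apply Finset.filter_congr
    intro m hm
    rw [hg2 (duW m), duW_coe (List.mem_toFinset.1 hm)]
  have hcases : L.length = 0 ∨ L.length = 2 ∨ L.length = 4 := by omega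
  rcases hcases with h0 | h2 | h4
  · rw [List.eq_nil_of_length_eq_zero h0, duCnt0] at hcntL
    exact absurd hcntL (by norm_num)
  · obtain ⟨p, q, hpq⟩ := List.length_eq_two.1 h2
    subst hpq
    have hne : p ≠ q := fun e =>
      (List.nodup_cons.1 hnd).1 (by rw [e]; exact List.mem_singleton_self q)
    refine ⟨p, q, h24 p (by simp), h24 q (by simp), hne, fun c => ?_⟩
    have e0 : duVal [] (c : GolayPt → ZMod 2) = 0 := rfl
    rw [hg2 c, duVal_cons, duVal_cons, e0, add_zero]
  · rw [du_cnt_four h4 h24 hnd] at hcntL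
    exact absurd hcntL (by norm_num)

theorem du_pair_image (x : ↥golayCode ≃ₗ[ZMod 2] ↥golayCode)
    (hE : ∀ e : ↥golayCode, (e : GolayPt → ZMod 2) = (fun _ => (1 : ZMod 2)) → x e = e)
    (hO : ∀ c : ↥golayCode, ∃ σ ∈ M24, duX x c = (fun p => (c : GolayPt → ZMod 2) (σ.symm p)) ∨
      duX x c = (fun p => (c : GolayPt → ZMod 2) (σ.symm p)) + fun _ => (1 : ZMod 2))
    (a b : GolayPt) (hab : a ≠ b) :
    ∃ a' b' : GolayPt, a' ≠ b' ∧ ∀ c : ↥golayCode,
      duX x c a + duX x c b = (c : GolayPt → ZMod 2) a' + (c : GolayPt → ZMod 2) b' := by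
  have hadd : ∀ c c' : ↥golayCode, duX x (c + c') a + duX x (c + c') b =
      (duX x c a + duX x c b) + (duX x c' a + duX x c' b) := by
    intro c c'
    rw [duX_add, Pi.add_apply, Pi.add_apply]
    exact add_add_add_comm _ _ _ _
  have hone : ∀ e : ↥golayCode, (e : GolayPt → ZMod 2) = (fun _ => (1 : ZMod 2)) →
      duX x e a + duX x e b = 0 := by
    intro e he
    have h1 : duX x e = fun _ => (1 : ZMod 2) := by
      unfold duX
      rw [hE e he]
      exact he
    rw [h1]
    exact dz_one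
  have hcnt : (octList.toFinset.filter
      (fun m => duX x (duW m) a + duX x (duW m) b = 0)).card = 407 := by
    rw [du_count x hE hO a b, du_pair_count a b hab]
  obtain ⟨p, q, hp, hq, hpq, h⟩ := du_pair_fun (fun c => duX x c a + duX x c b) hadd hone hcnt
  refine ⟨gPt p, gPt q, ?_, h⟩
  intro e
  have e2 := congrArg gIdx e
  rw [gIdx_gPt hp, gIdx_gPt hq] at e2
  exact hpq e2

theorem du_main (x : ↥golayCode ≃ₗ[ZMod 2] ↥golayCode)
    (hE : ∀ e : ↥golayCode, (e : GolayPt → ZMod 2) = (fun _ => (1 : ZMod 2)) → x e = e)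
    (hO : ∀ c : ↥golayCode, ∃ σ ∈ M24, duX x c = (fun p => (c : GolayPt → ZMod 2) (σ.symm p)) ∨
      duX x c = (fun p => (c : GolayPt → ZMod 2) (σ.symm p)) + fun _ => (1 : ZMod 2)) :
    ∃ σ ∈ M24, ∀ c : ↥golayCode, duX x c = (fun p => (c : GolayPt → ZMod 2) (σ.symm p)) ∨
      duX x c = (fun p => (c : GolayPt → ZMod 2) (σ.symm p)) + fun _ => (1 : ZMod 2) := by
  have hP : ∀ a b : GolayPt, a ≠ b → ∃ P : Finset GolayPt, P.card = 2 ∧
      ∀ c : ↥golayCode, duX x c a + duX x c b = ∑ q ∈ P, (c : GolayPt → ZMod 2) q := by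
    intro a b hab
    obtain ⟨a', b', hne, h⟩ := du_pair_image x hE hO a b hab
    exact ⟨{a', b'}, Finset.card_pair hne, fun c => by rw [h c, Finset.sum_pair hne]⟩
  have hex : ∀ b : GolayPt, ∃ P : Finset GolayPt, b ≠ none → (P.card = 2 ∧
      ∀ c : ↥golayCode, duX x c none + duX x c b = ∑ q ∈ P, (c : GolayPt → ZMod 2) q) := by
    intro b
    by_cases hb : b = none
    · exact ⟨∅, fun h => absurd hb h⟩
    · obtain ⟨P, h1, h2⟩ := hP none b (Ne.symm hb)
      exact ⟨P, fun _ => ⟨h1, h2⟩⟩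
  choose P hPc using hex
  have hint : ∀ b ∈ {b : GolayPt | b ≠ none}, ∀ b' ∈ {b : GolayPt | b ≠ none}, b ≠ b' →
      (P b ∩ P b').card = 1 := by
    intro b hb b' hb' hbb'
    obtain ⟨W, hW, hWc⟩ := hP b b' hbb'
    refine du_inter (hPc b hb).1 (hPc b' hb').1 hW (fun c hc => ?_)
    have h1 : duX x ⟨c, hc⟩ none + duX x ⟨c, hc⟩ b = ∑ q ∈ P b, c q := (hPc b hb).2 ⟨c, hc⟩
    have h2 : duX x ⟨c, hc⟩ none + duX x ⟨c, hc⟩ b' = ∑ q ∈ P b', c q :=
      (hPc b' hb').2 ⟨c, hc⟩
    have h3 : duX x ⟨c, hc⟩ b + duX x ⟨c, hc⟩ b' = ∑ q ∈ W, c q := hWc ⟨c, hc⟩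
    rw [← h1, ← h2, ← h3]
    exact dz_e _ _ _
  obtain ⟨z, hz⟩ := du_star_family P {b : GolayPt | b ≠ none} (some 0) (some 1) (some 2) (some 3)
    (Option.some_ne_none _) (Option.some_ne_none _) (Option.some_ne_none _)
    (Option.some_ne_none _) (by decide) (by decide) (by decide) (by decide) (by decide)
    (by decide) (fun b hb => (hPc b hb).1) hint
  have hex2 : ∀ b : GolayPt, ∃ t : GolayPt, b ≠ none → ∀ c : ↥golayCode,
      duX x c none + duX x c b = (c : GolayPt → ZMod 2) z + (c : GolayPt → ZMod 2) t := by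
    intro b
    by_cases hb : b = none
    · exact ⟨z, fun h => absurd hb h⟩
    · have hzb : z ∈ P b := hz b hb
      have hcard : ((P b).erase z).card = 1 := by
        rw [Finset.card_erase_of_mem hzb, (hPc b hb).1]
      obtain ⟨t, ht⟩ := Finset.card_eq_one.1 hcard
      have htm : t ∈ (P b).erase z := by rw [ht]; exact Finset.mem_singleton_self t
      have htz : t ≠ z := (Finset.mem_erase.1 htm).1
      have hPb : P b = {z, t} := by rw [← Finset.insert_erase hzb, ht]
      refine ⟨t, fun _ c => ?_⟩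
      rw [(hPc b hb).2 c, hPb, Finset.sum_pair (Ne.symm htz)]
  choose τ hτ using hex2
  obtain ⟨σf, hσf⟩ : ∃ σf : GolayPt → GolayPt, ∀ b, σf b = if b = none then z else τ b :=
    ⟨fun b => if b = none then z else τ b, fun _ => rfl⟩
  have key : ∀ (b : GolayPt) (c : ↥golayCode),
      duX x c none + duX x c b = (c : GolayPt → ZMod 2) z + (c : GolayPt → ZMod 2) (σf b) := by
    intro b c
    by_cases hb : b = none
    · rw [hσf b, if_pos hb, hb]
      exact dz_f _ _
    · rw [hσf b, if_neg hb]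
      exact hτ b hb c
  have star2 : ∀ (a b : GolayPt) (c : ↥golayCode),
      duX x c a + duX x c b = (c : GolayPt → ZMod 2) (σf a) + (c : GolayPt → ZMod 2) (σf b) :=
    fun a b c => dz_g _ _ _ _ _ _ (key a c) (key b c)
  have hinj : Function.Injective σf := by
    intro a b hab
    by_contra hne
    have h1 : ∀ c ∈ golayCode, ∑ q ∈ ({a, b} : Finset GolayPt), c q = 0 := by
      intro c hc
      rw [Finset.sum_pair hne]
      have h2 := star2 a b (x.symm ⟨c, hc⟩)
      have h3 : duX x (x.symm ⟨c, hc⟩) = c := congrArg Subtype.val (x.apply_symm_apply ⟨c, hc⟩)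
      rw [hab, h3] at h2
      rw [h2]
      exact dz_self _
    have h4 := du_min {a, b} (by rw [Finset.card_pair hne]; norm_num) h1
    exact Finset.insert_ne_empty _ _ h4
  have hbij : Function.Bijective σf := Finite.injective_iff_bijective.1 hinj
  have hfin : ∀ c : ↥golayCode, duX x c = (fun p => (c : GolayPt → ZMod 2) (σf p)) ∨
      duX x c = (fun p => (c : GolayPt → ZMod 2) (σf p)) + fun _ => (1 : ZMod 2) := by
    intro c
    rcases dz_cases (duX x c none + (c : GolayPt → ZMod 2) (σf none)) with h0 | h0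
    · left
      funext p
      exact dz_i _ _ _ _ (star2 none p c) h0
    · right
      funext p
      exact dz_j _ _ _ _ (star2 none p c) h0
  refine ⟨(Equiv.ofBijective σf hbij).symm, ?_, ?_⟩
  · rw [mem_M24_iff]
    intro w hw
    show (fun p => w (σf p)) ∈ golayCode
    rcases hfin ⟨w, hw⟩ with h | h
    · have h' : duX x ⟨w, hw⟩ = fun p => w (σf p) := h
      rw [← h']
      exact (x ⟨w, hw⟩).2
    · have h' : duX x ⟨w, hw⟩ = (fun p => w (σf p)) + fun _ => (1 : ZMod 2) := h
      have h2 : (fun p => w (σf p)) = duX x ⟨w, hw⟩ + fun _ => (1 : ZMod 2) := by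
        rw [h']
        funext p
        exact dz_k _
      rw [h2]
      exact Submodule.add_mem _ (x ⟨w, hw⟩).2 duOne_mem
  · intro c
    exact hfin c

end Cfsg.Agent.Helper3
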