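import Cfsg.Agent.Helper3.Fam.D1558
import Cfsg.Agent.Helper3.Fam.SextStab
import Cfsg.Agent.Helper3.Fam.Dual
import Cfsg.Agent.Helper3.Fam.Trio
import Mathlib.LinearAlgebra.Matrix.GeneralLinearGroup.Card

/-!
The stabilizer of a trio: it induces the symmetric group on the three octads, and it acts on the
three-dimensional space spanned (modulo the Golay code) by the tetrads of the seven sextets
refining the trio; the kernel of the two actions is elementary abelian of order 64.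
-/

set_option autoImplicit false

namespace Cfsg.Agent.Helper3

open Cfsg
open scoped Pointwise

/-! ### dot products of masks -/

/-- parity of the intersection of two masks -/
def trDotB (a b : ℕ) : Bool := Nat.beq (Nat.mod (gPopc (Nat.land a b)) 2) 1

theorem gDec_eq_ite (m : ℕ) (p : GolayPt) : gDec m p = if p ∈ gSupp m then 1 else 0 := by
  unfold gDec
  simp only [mem_gSupp]

theorem tr_cast_two (n : ℕ) :
    ((n : ℕ) : ZMod 2) = if Nat.beq (Nat.mod n 2) 1 = true then 1 else 0 := by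
  have h := ZMod.natCast_mod n 2
  rw [← h]
  show ((n % 2 : ℕ) : ZMod 2) = if Nat.beq (n % 2) 1 = true then 1 else 0
  rcases Nat.mod_two_eq_zero_or_one n with h0 | h0 <;> rw [h0] <;> rfl

theorem trDot_eq (a b : ℕ) : duDot a (gDec b) = if trDotB a b = true then 1 else 0 := by
  have h1 : duDot a (gDec b) =
      ∑ p : GolayPt, if p ∈ gSupp (Nat.land a b) then (1 : ZMod 2) else 0 := by
    unfold duDot
    refine Finset.sum_congr rfl (fun p _ => ?_)
    rw [gDec_eq_ite, gDec_eq_ite, ← gSupp_inter]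
    by_cases h1 : p ∈ gSupp a <;> by_cases h2 : p ∈ gSupp b <;> simp [h1, h2]
  rw [h1, Finset.sum_boole, Finset.filter_mem_eq_inter, Finset.univ_inter, gSupp_card]
  exact tr_cast_two _

/-- change of variables -/
theorem tr_cov {h : Equiv.Perm GolayPt} {m m' : ℕ} (hm : h • gSupp m = gSupp m')
    (c : GolayPt → ZMod 2) : duDot m (fun q => c (h q)) = duDot m' c := by
  unfold duDot
  rw [← Equiv.sum_comp h (fun q => gDec m' q * c q)]
  refine Finset.sum_congr rfl (fun p _ => ?_)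
  congr 1
  rw [gDec_eq_ite, gDec_eq_ite, ← hm, ← Equiv.Perm.smul_def h p]
  simp only [Finset.smul_mem_smul_finset_iff]

def trSel (b : Bool) (t : ℕ) : ℕ := cond b t 0

theorem trSel_dot (b : Bool) (t : ℕ) (c : GolayPt → ZMod 2) :
    duDot (trSel b t) c = (if b = true then 1 else 0) * duDot t c := by
  cases b
  · show duDot 0 c = _
    rw [duDot_zero]
    simp
  · show duDot t c = _
    simp

/-- reduction of a mask modulo the three basis tetrads -/
def trRed (m : ℕ) : ℕ :=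
  ((m ^^^ trSel (trDotB m trD1) trT1) ^^^ trSel (trDotB m trD2) trT2) ^^^
    trSel (trDotB m trD3) trT3

theorem tr_z4 : ∀ x a b c : ZMod 2, x + a + b + c = 0 → x = a + b + c := by decide

theorem tr_lin {m : ℕ} (hm : gIsCw (trRed m) = true) {c : GolayPt → ZMod 2}
    (hc : c ∈ golayCode) :
    duDot m c = (if trDotB m trD1 = true then 1 else 0) * duDot trT1 c +
      (if trDotB m trD2 = true then 1 else 0) * duDot trT2 c +
      (if trDotB m trD3 = true then 1 else 0) * duDot trT3 c := by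
  have h0 : duDot (trRed m) c = 0 := golay_orth _ _ (gIsCw_mem hm) hc
  unfold trRed at h0
  rw [duDot_xor, duDot_xor, duDot_xor, trSel_dot, trSel_dot, trSel_dot] at h0
  exact tr_z4 _ _ _ _ h0

theorem tr_code_comp {g : Equiv.Perm GolayPt} (hg : g ∈ M24) {c : GolayPt → ZMod 2}
    (hc : c ∈ golayCode) : (fun q => c (g q)) ∈ golayCode := by
  have h := (mem_M24_iff g⁻¹).1 (M24.inv_mem hg) c hc
  rw [inv_inv] at h
  exact h

/-! ### the orbit of a refining sextet -/

theorem tr_bool : ∀ a b1 b2 b3 c1 c2 c3 s : Bool,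
    (a && (!((b1 == c1) && (b2 == c2) && (b3 == c3)) || s)) = true →
      a = true ∧ (b1 = c1 → b2 = c2 → b3 = c3 → s = true) := by decide

def trGood (i : ℕ) (X Y : List ℕ) (m : ℕ) : Bool :=
  gIsCw (trRed m) && (!((trDotB m trD1 == Nat.beq i 0) && (trDotB m trD2 == Nat.beq i 1) &&
    (trDotB m trD3 == Nat.beq i 2)) || gSameL Y X)

def trGoodAll (i : ℕ) (X : List ℕ) (A : ℕ) : Bool :=
  gAllLt 7 (fun idx => (gDecL 6 (aCode 192 A idx)).all
    (fun m => trGood i X (gDecL 6 (aCode 192 A idx)) m))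

theorem tr_orb_step {G X : List ℕ} {A : ℕ} {t : ℕ} (i : ℕ)
    (hok : aOrbOK [trX] G X 6 192 A 7 = true) (hn : (fOrb [trX] (gFam X)).ncard = 7)
    (ht : t ∈ X) (hgood : trGoodAll i X A = true)
    {h : Equiv.Perm GolayPt} (hh : h ∈ fSub [trX] 0) :
    ∃ (Y : List ℕ) (m : ℕ), h • gSupp t = gSupp m ∧ h • gFam X = gFam Y ∧
      trGood i X Y m = true := by
  have h1 : h • gFam X ∈ fOrb [trX] (gFam X) := ⟨h, hh, rfl⟩
  rw [aOrb_enum hok hn] at h1
  obtain ⟨idx, hidx, hY⟩ := h1
  have h2 : h • gSupp t ∈ h • gFam X := Finset.smul_mem_smul_finset (mem_gFam.2 ⟨t, ht, rfl⟩)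
  rw [← hY] at h2
  obtain ⟨m, hm, hms⟩ := mem_gFam.1 h2
  refine ⟨gDecL 6 (aCode 192 A idx), m, hms.symm, hY.symm, ?_⟩
  have h3 := (gAllLt_iff _ _).1 hgood idx hidx
  exact List.all_eq_true.1 h3 m hm

theorem tqa_orb_ok : aOrbOK [trX] tqa1G tqa1X 6 192 tqa1A 7 = true := by decide +kernel

theorem tqb_orb_ok : aOrbOK [trX] tqb1G tqb1X 6 192 tqb1A 7 = true := by decide +kernel

theorem tqc_orb_ok : aOrbOK [trX] tqc1G tqc1X 6 192 tqc1A 7 = true := by decide +kernel

theorem tqa_good : trGoodAll 0 tqa1X tqa1A = true := by decide +kernel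

theorem tqb_good : trGoodAll 1 tqb1X tqb1A = true := by decide +kernel

theorem tqc_good : trGoodAll 2 tqc1X tqc1A = true := by decide +kernel

/-! ### the matrix of an element of the stabilizer -/

def trTf : Fin 3 → ℕ := ![trT1, trT2, trT3]

def trDf : Fin 3 → ℕ := ![trD1, trD2, trD3]

def trSf : Fin 3 → List ℕ := ![tqa1X, tqb1X, tqc1X]

noncomputable def trMat (g : Equiv.Perm GolayPt) : Matrix (Fin 3) (Fin 3) (ZMod 2) :=
  fun j i => duDot (trTf i) (fun q => gDec (trDf j) (g q))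

theorem trD_mem (j : Fin 3) : gDec (trDf j) ∈ golayCode := by
  fin_cases j
  · exact gIsCw_mem (by decide +kernel)
  · exact gIsCw_mem (by decide +kernel)
  · exact gIsCw_mem (by decide +kernel)

theorem tr_orb (i : Fin 3) {h : Equiv.Perm GolayPt} (hh : h ∈ fSub [trX] 0) :
    ∃ (Y : List ℕ) (m : ℕ), h • gSupp (trTf i) = gSupp m ∧ h • gFam (trSf i) = gFam Y ∧
      trGood (i : ℕ) (trSf i) Y m = true := by
  fin_cases i
  · exact tr_orb_step 0 tqa_orb_ok tqa1_ok.1 (by decide) tqa_good hh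
  · exact tr_orb_step 1 tqb_orb_ok tqb1_ok.1 (by decide) tqb_good hh
  · exact tr_orb_step 2 tqc_orb_ok tqc1_ok.1 (by decide) tqc_good hh

theorem trMat_entry {h : Equiv.Perm GolayPt} (i : Fin 3) {m : ℕ}
    (hm : h • gSupp (trTf i) = gSupp m) (j : Fin 3) :
    trMat h j i = if trDotB m (trDf j) = true then 1 else 0 := by
  show duDot (trTf i) (fun q => gDec (trDf j) (h q)) = _
  rw [tr_cov hm, trDot_eq]

theorem trMat_mul {g h : Equiv.Perm GolayPt} (hg : g ∈ M24) (hh : h ∈ fSub [trX] 0) :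
    trMat (g * h) = trMat g * trMat h := by
  ext j i
  obtain ⟨Y, m, hm, -, hgood⟩ := tr_orb i hh
  have hcw : gIsCw (trRed m) = true := (tr_bool _ _ _ _ _ _ _ _ hgood).1
  have hc : (fun q => gDec (trDf j) (g q)) ∈ golayCode := tr_code_comp hg (trD_mem j)
  have e1 : trMat (g * h) j i = duDot m (fun q => gDec (trDf j) (g q)) :=
    tr_cov hm (fun q => gDec (trDf j) (g q))
  have a0 : (if trDotB m trD1 = true then (1 : ZMod 2) else 0) = trMat h 0 i :=
    (trMat_entry i hm 0).symm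
  have a1 : (if trDotB m trD2 = true then (1 : ZMod 2) else 0) = trMat h 1 i :=
    (trMat_entry i hm 1).symm
  have a2 : (if trDotB m trD3 = true then (1 : ZMod 2) else 0) = trMat h 2 i :=
    (trMat_entry i hm 2).symm
  rw [e1, tr_lin hcw hc, Matrix.mul_apply, Fin.sum_univ_three, a0, a1, a2]
  show trMat h 0 i * trMat g j 0 + trMat h 1 i * trMat g j 1 + trMat h 2 i * trMat g j 2 = _
  ring

theorem trMat_one : trMat 1 = 1 := by
  ext j i
  have hm : (1 : Equiv.Perm GolayPt) • gSupp (trTf i) = gSupp (trTf i) := one_smul _ _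
  rw [trMat_entry i hm j, Matrix.one_apply]
  fin_cases i <;> fin_cases j <;> decide +kernel

theorem tr_bit {b : Bool} {c : Prop} [Decidable c]
    (h : (if b = true then (1 : ZMod 2) else 0) = if c then 1 else 0) : b = decide c := by
  cases b <;> by_cases hc : c
  · rw [if_pos hc] at h
    exact absurd h (by decide)
  · simp [hc]
  · simp [hc]
  · rw [if_neg hc] at h
    exact absurd h (by decide)

theorem tr_ker_fix {k : Equiv.Perm GolayPt} (hk : k ∈ fSub [trX] 0) (h1 : trMat k = 1)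
    (i : Fin 3) : k • gFam (trSf i) = gFam (trSf i) := by
  obtain ⟨Y, m, hm, hY, hgood⟩ := tr_orb i hk
  have e : ∀ j : Fin 3, trDotB m (trDf j) = decide (j = i) := by
    intro j
    apply tr_bit
    rw [← trMat_entry i hm j, h1, Matrix.one_apply]
  have e0 : trDotB m trD1 = decide ((0 : Fin 3) = i) := e 0
  have e1 : trDotB m trD2 = decide ((1 : Fin 3) = i) := e 1
  have e2 : trDotB m trD3 = decide ((2 : Fin 3) = i) := e 2
  have hs : gSameL Y (trSf i) = true := by
    refine (tr_bool _ _ _ _ _ _ _ _ hgood).2 ?_ ?_ ?_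
    · rw [e0]
      fin_cases i <;> rfl
    · rw [e1]
      fin_cases i <;> rfl
    · rw [e2]
      fin_cases i <;> rfl
  rw [hY]
  exact gFam_eq_of_same hs

/-! ### the kernel for the reference trio -/

theorem trX_cases {m : ℕ} (hm : m ∈ trX) : m = 5279 ∨ m = 1009728 ∨ m = 15762208 := by
  have h : m ∈ [5279, 1009728, 15762208] := hm
  simpa using h

/-- the subgroup fixing the three octads of the reference trio -/
theorem mem_trK {k : Equiv.Perm GolayPt} (hk : k ∈ M24) :
    k ∈ fSub [t53X, t52X, t51X, trX] 0 ↔ ∀ t ∈ gFam trX, k • t = t := by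
  constructor
  · intro h t ht
    obtain ⟨m, hm, rfl⟩ := mem_gFam.1 ht
    have hA : ∀ A ∈ [t53X, t52X, t51X, trX], k • gFam A = gFam A := h.2.1
    rcases trX_cases hm with rfl | rfl | rfl
    · exact (fam_set_fix k 5279).1 (hA t51X (by simp))
    · exact (fam_set_fix k 1009728).1 (hA t52X (by simp))
    · exact (fam_set_fix k 15762208).1 (hA t53X (by simp))
  · intro h
    have hm : ∀ m ∈ trX, k • gFam [m] = gFam [m] := fun m hm =>
      (fam_set_fix k m).2 (h _ (mem_gFam.2 ⟨m, hm, rfl⟩))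
    refine ⟨hk, ?_, ptFix_zero k⟩
    intro A hA
    simp only [List.mem_cons, List.mem_nil_iff, or_false] at hA
    rcases hA with rfl | rfl | rfl | rfl
    · exact hm 15762208 (by decide)
    · exact hm 1009728 (by decide)
    · exact hm 5279 (by decide)
    · exact fam_smul_eq_of_fix h

theorem tr_ker_mem {k : Equiv.Perm GolayPt} (hk : k ∈ fSub [trX] 0) (h1 : trMat k = 1)
    (h2 : ∀ t ∈ gFam trX, k • t = t) :
    k ∈ fSub [t56X, t55X, t54X, t53X, t52X, t51X, trX] 0 := by
  have hK : k ∈ fSub [t53X, t52X, t51X, trX] 0 := (mem_trK hk.1).2 h2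
  refine ⟨hk.1, ?_, ptFix_zero k⟩
  intro A hA
  rcases List.mem_cons.1 hA with rfl | hA
  · exact tr_ker_fix hk h1 2
  rcases List.mem_cons.1 hA with rfl | hA
  · exact tr_ker_fix hk h1 1
  rcases List.mem_cons.1 hA with rfl | hA
  · exact tr_ker_fix hk h1 0
  · exact hK.2.1 A hA

theorem t5W_mem : ∀ w ∈ t5W,
    gWordPerm w ∈ fSub [t56X, t55X, t54X, t53X, t52X, t51X, trX] 0 := by
  have h : t5W.all (fWordOK [t56X, t55X, t54X, t53X, t52X, t51X, trX] 0) = true := by
    decide +kernel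
  intro w hw
  exact fWordOK_mem (List.all_eq_true.1 h w hw)

theorem t5W_nodup : (t5W.map (fun w => [0, 5].map (gWordAt w))).Nodup := by
  decide +kernel

theorem t5W_enum : ∀ g ∈ fSub [t56X, t55X, t54X, t53X, t52X, t51X, trX] 0,
    ∃ w ∈ t5W, gWordPerm w = g :=
  enum_of_words' _ t5W [0, 5] (by decide) t5W_mem t5W_nodup
    (t56_ok.2.trans (by decide +kernel))

theorem t5W_sq : ∀ w ∈ t5W, gWordPerm w * gWordPerm w = 1 := by
  have h : t5W.all (fun w => gWordEq (w ++ w) []) = true := by decide +kernel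
  intro w hw
  have h1 : gWordEq (w ++ w) [] = true := List.all_eq_true.1 h w hw
  rw [← gWordPerm_app]
  exact (gWordEq_sound h1).trans gWordPerm_nil

theorem trN_sq {k : Equiv.Perm GolayPt}
    (hk : k ∈ fSub [t56X, t55X, t54X, t53X, t52X, t51X, trX] 0) : k * k = 1 := by
  obtain ⟨w, hw, rfl⟩ := t5W_enum k hk
  exact t5W_sq w hw

/-! ### an arbitrary trio -/

theorem trio_stab_bridge (c : Equiv.Perm GolayPt) (hc : c ∈ M24) (x : ↥M24) :
    x ∈ MulAction.stabilizer ↥M24 (c • gFam trX) ↔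
      c⁻¹ * (x : Equiv.Perm GolayPt) * c ∈ fSub [trX] 0 := by
  have e1 : x • (c • gFam trX) = c • gFam trX ↔
      (c⁻¹ * (x : Equiv.Perm GolayPt) * c) • gFam trX = gFam trX :=
    stab_bridge_core c (x : Equiv.Perm GolayPt) (gFam trX)
  rw [MulAction.mem_stabilizer_iff, e1,
    mem_fSub_single (M24.mul_mem (M24.mul_mem (M24.inv_mem hc) x.2) hc)]

theorem trio_stab_card (c : Equiv.Perm GolayPt) (hc : c ∈ M24) :
    Nat.card ↥(MulAction.stabilizer ↥M24 (c • gFam trX)) = 64512 := by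
  have e1 : MulAction.stabilizer ↥M24 (c • gFam trX) = conjSub (fSub [trX] 0) c := by
    ext x
    exact trio_stab_bridge c hc x
  rw [e1, card_conjSub _ (fSub_le _ 0) c hc]
  exact tr_ok.2

theorem trio_kernel_card (c : Equiv.Perm GolayPt) (hc : c ∈ M24) :
    Nat.card {g : ↥(MulAction.stabilizer ↥M24 (c • gFam trX)) //
      ∀ t ∈ c • gFam trX, ((g : ↥M24) : Equiv.Perm GolayPt) • t = t} = 10752 := by
  have hmem : ∀ x : ↥M24,
      x ∈ conjSub (fSub [t53X, t52X, t51X, trX] 0) c ↔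
      ∀ t ∈ c • gFam trX, (x : Equiv.Perm GolayPt) • t = t := by
    intro x
    have hx : c⁻¹ * (x : Equiv.Perm GolayPt) * c ∈ M24 :=
      M24.mul_mem (M24.mul_mem (M24.inv_mem hc) x.2) hc
    show c⁻¹ * (x : Equiv.Perm GolayPt) * c ∈ fSub [t53X, t52X, t51X, trX] 0 ↔ _
    rw [mem_trK hx]
    constructor
    · intro h t ht
      obtain ⟨t0, ht0, rfl⟩ := Finset.mem_smul_finset.1 ht
      exact (stab_bridge_core c (x : Equiv.Perm GolayPt) t0).2 (h t0 ht0)
    · intro h t0 ht0
      exact (stab_bridge_core c (x : Equiv.Perm GolayPt) t0).1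
        (h (c • t0) (Finset.smul_mem_smul_finset ht0))
  have hstab : ∀ x : ↥M24, (∀ t ∈ c • gFam trX, (x : Equiv.Perm GolayPt) • t = t) →
      x ∈ MulAction.stabilizer ↥M24 (c • gFam trX) := by
    intro x h
    rw [MulAction.mem_stabilizer_iff]
    exact fam_smul_eq_of_fix h
  have e : {g : ↥(MulAction.stabilizer ↥M24 (c • gFam trX)) //
      ∀ t ∈ c • gFam trX, ((g : ↥M24) : Equiv.Perm GolayPt) • t = t} ≃
      ↥(conjSub (fSub [t53X, t52X, t51X, trX] 0) c) :=
    { toFun := fun g => ⟨g.1.1, (hmem _).2 g.2⟩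
      invFun := fun x => ⟨⟨x.1, hstab x.1 ((hmem _).1 x.2)⟩, (hmem _).1 x.2⟩
      left_inv := fun _ => rfl
      right_inv := fun _ => rfl }
  rw [Nat.card_congr e, card_conjSub _ (fSub_le _ 0) c hc]
  exact t53_ok.2

theorem trio_surj (c : Equiv.Perm GolayPt) (hc : c ∈ M24)
    (e : Equiv.Perm ↥(c • gFam trX)) :
    ∃ g ∈ MulAction.stabilizer ↥M24 (c • gFam trX), ∀ t : ↥(c • gFam trX),
      ((g : ↥M24) : Equiv.Perm GolayPt) • (t : Finset GolayPt) =
        ((e t : ↥(c • gFam trX)) : Finset GolayPt) := by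
  obtain ⟨φ, hφ⟩ := sext_hom (c • gFam trX)
  have hker : ∀ g : ↥(MulAction.stabilizer ↥M24 (c • gFam trX)), g ∈ φ.ker ↔
      ∀ t ∈ c • gFam trX, ((g : ↥M24) : Equiv.Perm GolayPt) • t = t := by
    intro g
    rw [MonoidHom.mem_ker]
    constructor
    · intro hg t ht
      have h := hφ g ⟨t, ht⟩
      rw [hg] at h
      exact h.symm
    · intro h
      exact Equiv.ext (fun t => Subtype.ext ((hφ g t).trans (h t t.2)))
  have hkc : Nat.card ↥φ.ker = 10752 :=
    (Nat.card_congr (Equiv.subtypeEquivRight hker)).trans (trio_kernel_card c hc)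
  have hG := trio_stab_card c hc
  have h1 := Subgroup.card_mul_index φ.ker
  rw [Subgroup.index_ker, hkc, hG] at h1
  have hS : Nat.card (Equiv.Perm ↥(c • gFam trX)) = 6 := by
    have h6 : Nat.factorial 3 = 6 := by decide
    rw [Nat.card_perm, Nat.card_eq_finsetCard, Finset.card_smul_finset, trX_mem.1, h6]
  have hr : φ.range = ⊤ := Subgroup.eq_top_of_card_eq _ (by rw [hS]; omega)
  have he : e ∈ φ.range := by
    rw [hr]
    exact Subgroup.mem_top e
  obtain ⟨g, hg⟩ := MonoidHom.mem_range.1 he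
  refine ⟨(g : ↥M24), g.2, fun t => ?_⟩
  rw [← hg]
  exact (hφ g t).symm

theorem tr_card_target : Nat.card (GL (Fin 3) (ZMod 2) × Equiv.Perm (Fin 3)) = 1008 := by
  rw [Nat.card_prod, Matrix.card_GL_field, Nat.card_perm, Fin.prod_univ_three]
  simp [ZMod.card]
  decide

theorem trio_structure (c : Equiv.Perm GolayPt) (hc : c ∈ M24) :
    ∃ (N : Subgroup ↥(MulAction.stabilizer ↥M24 (c • gFam trX))) (_ : N.Normal),
      Nat.card ↥N = 64 ∧ (∀ x ∈ N, x * x = 1) ∧
      Nonempty (↥(MulAction.stabilizer ↥M24 (c • gFam trX)) ⧸ N ≃*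
        GL (Fin 3) (ZMod 2) × Equiv.Perm (Fin 3)) := by
  have hb : ∀ x : ↥(MulAction.stabilizer ↥M24 (c • gFam trX)),
      c⁻¹ * ((x : ↥M24) : Equiv.Perm GolayPt) * c ∈ fSub [trX] 0 :=
    fun x => (trio_stab_bridge c hc x.1).1 x.2
  obtain ⟨ψ0, hψ0⟩ : ∃ ψ0 : ↥(MulAction.stabilizer ↥M24 (c • gFam trX)) →*
      Matrix (Fin 3) (Fin 3) (ZMod 2),
      ∀ x, ψ0 x = trMat (c⁻¹ * ((x : ↥M24) : Equiv.Perm GolayPt) * c) := by
    refine ⟨
      { toFun := fun x => trMat (c⁻¹ * ((x : ↥M24) : Equiv.Perm GolayPt) * c)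
        map_one' := ?_
        map_mul' := ?_ }, fun _ => rfl⟩
    · show trMat (c⁻¹ * (1 : Equiv.Perm GolayPt) * c) = 1
      rw [mul_one, inv_mul_cancel]
      exact trMat_one
    · intro x y
      show trMat (c⁻¹ * (((x : ↥M24) : Equiv.Perm GolayPt) *
        ((y : ↥M24) : Equiv.Perm GolayPt)) * c) =
        trMat (c⁻¹ * ((x : ↥M24) : Equiv.Perm GolayPt) * c) *
          trMat (c⁻¹ * ((y : ↥M24) : Equiv.Perm GolayPt) * c)
      rw [← trMat_mul (hb x).1 (hb y)]
      congr 1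
      simp only [mul_assoc, mul_inv_cancel_left]
  obtain ⟨φ, hφ⟩ := sext_hom (c • gFam trX)
  have hcard3 : (c • gFam trX).card = 3 := by
    rw [Finset.card_smul_finset]
    exact trX_mem.1
  obtain ⟨ψ, hψ1, hψ2⟩ : ∃ ψ : ↥(MulAction.stabilizer ↥M24 (c • gFam trX)) →*
      GL (Fin 3) (ZMod 2) × Equiv.Perm (Fin 3),
      (∀ x, ((ψ x).1 : Matrix (Fin 3) (Fin 3) (ZMod 2)) =
        trMat (c⁻¹ * ((x : ↥M24) : Equiv.Perm GolayPt) * c)) ∧
      (∀ x, (ψ x).2 = 1 → φ x = 1) :=
    ⟨(ψ0.toHomUnits).prod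
      (((Finset.equivFinOfCardEq hcard3).permCongrHom).toMonoidHom.comp φ),
      fun x => hψ0 x, fun x h =>
        (MulEquiv.map_eq_one_iff ((Finset.equivFinOfCardEq hcard3).permCongrHom)).1 h⟩
  have hker : ∀ x : ↥(MulAction.stabilizer ↥M24 (c • gFam trX)), x ∈ ψ.ker →
      c⁻¹ * ((x : ↥M24) : Equiv.Perm GolayPt) * c ∈
        fSub [t56X, t55X, t54X, t53X, t52X, t51X, trX] 0 := by
    intro x hx
    rw [MonoidHom.mem_ker] at hx
    have h1 : trMat (c⁻¹ * ((x : ↥M24) : Equiv.Perm GolayPt) * c) = 1 := by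
      rw [← hψ1 x, hx]
      rfl
    have h2 : φ x = 1 := hψ2 x (by rw [hx]; rfl)
    have h3 : ∀ t ∈ c • gFam trX, ((x : ↥M24) : Equiv.Perm GolayPt) • t = t := by
      intro t ht
      have h := hφ x ⟨t, ht⟩
      rw [h2] at h
      exact h.symm
    apply tr_ker_mem (hb x) h1
    intro t0 ht0
    exact (stab_bridge_core c ((x : ↥M24) : Equiv.Perm GolayPt) t0).1
      (h3 (c • t0) (Finset.smul_mem_smul_finset ht0))
  have hkc : Nat.card ↥ψ.ker ≤ 64 := by
    have hinj : Function.Injective (fun x : ↥ψ.ker =>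
        (⟨c⁻¹ * (((x : ↥(MulAction.stabilizer ↥M24 (c • gFam trX))) : ↥M24) :
          Equiv.Perm GolayPt) * c, hker x.1 x.2⟩ :
          ↥(fSub [t56X, t55X, t54X, t53X, t52X, t51X, trX] 0))) := by
      intro x y hxy
      have h := congrArg Subtype.val hxy
      have h' : (((x : ↥(MulAction.stabilizer ↥M24 (c • gFam trX))) : ↥M24) :
          Equiv.Perm GolayPt) = (((y : ↥(MulAction.stabilizer ↥M24 (c • gFam trX))) : ↥M24) :
          Equiv.Perm GolayPt) := mul_left_cancel (mul_right_cancel h)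
      exact Subtype.ext (Subtype.ext (Subtype.ext h'))
    have h := Nat.card_le_card_of_injective _ hinj
    rw [t56_ok.2] at h
    exact h
  have hG := trio_stab_card c hc
  have h1 := Subgroup.card_mul_index ψ.ker
  rw [Subgroup.index_ker, hG] at h1
  have hr_le : Nat.card ↥ψ.range ≤ 1008 := by
    rw [← tr_card_target]
    exact Subgroup.card_le_card_group _
  have hr : Nat.card ↥ψ.range = 1008 := by
    have h2 := Nat.mul_le_mul_right (Nat.card ↥ψ.range) hkc
    omega
  have hk64 : Nat.card ↥ψ.ker = 64 := by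
    rw [hr] at h1
    omega
  have hsurj : Function.Surjective ψ := by
    rw [← MonoidHom.range_eq_top]
    exact Subgroup.eq_top_of_card_eq _ (by rw [hr, tr_card_target])
  refine ⟨ψ.ker, inferInstance, hk64, ?_,
    ⟨QuotientGroup.quotientKerEquivOfSurjective ψ hsurj⟩⟩
  intro x hx
  have hk := trN_sq (hker x hx)
  apply Subtype.ext
  apply Subtype.ext
  show ((x : ↥M24) : Equiv.Perm GolayPt) * ((x : ↥M24) : Equiv.Perm GolayPt) = 1
  have e : ((x : ↥M24) : Equiv.Perm GolayPt) * ((x : ↥M24) : Equiv.Perm GolayPt) =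
      c * ((c⁻¹ * ((x : ↥M24) : Equiv.Perm GolayPt) * c) *
        (c⁻¹ * ((x : ↥M24) : Equiv.Perm GolayPt) * c)) * c⁻¹ := by
    simp only [mul_assoc, mul_inv_cancel_left, mul_inv_cancel, mul_one]
  rw [e, hk, mul_one, mul_inv_cancel]

end Cfsg.Agent.Helper3
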