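import Cfsg.Agent.Helper3.Fam.D2133
import Cfsg.Agent.Helper3.Fam.TrioStab
import Cfsg.Agent.Helper3.Fam.OctTrio

set_option autoImplicit false

namespace Cfsg.Agent.Helper3

open Cfsg
open scoped Pointwise

/-! ### affine labels on the sixteen points outside the standard octad -/

/-- the five codewords spanning the words vanishing on the standard octad -/
def zDf : Fin 5 → ℕ := ![zD0, zD1, zD2, zD3, zD4]

/-- the affine frame -/
def zFf : Fin 5 → ℕ := ![zF0, zF1, zF2, zF3, zF4]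

theorem zD_mem (a : Fin 5) : gDec (zDf a) ∈ golayCode := by
  fin_cases a <;> exact gIsCw_mem (by decide +kernel)

theorem zD_out (a : Fin 5) : Nat.land (zDf a) 5279 = 0 := by
  fin_cases a <;> decide +kernel

theorem zF_lt (b : Fin 5) : zFf b < 24 := by
  fin_cases b <;> decide

theorem zF_out (b : Fin 5) : Nat.testBit 5279 (zFf b) = false := by
  fin_cases b <;> decide +kernel

theorem gDec_gPt (m : ℕ) {q : ℕ} (hq : q < 24) :
    gDec m (gPt q) = if m.testBit q = true then 1 else 0 := by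
  unfold gDec
  rw [gIdx_gPt hq]

/-- the matrix of the action on the affine labels, in homogeneous coordinates -/
noncomputable def zMat (g : Equiv.Perm GolayPt) : Matrix (Fin 5) (Fin 5) (ZMod 2) :=
  fun a b => if b = 1 then gDec (zDf a) (g (gPt zF1))
    else gDec (zDf a) (g (gPt (zFf b))) + gDec (zDf a) (g (gPt zF1))

/-- the affine relation expressing the point `q` by the frame -/
def zAff (q : ℕ) : ℕ :=
  ((((2 ^ q ^^^ 2 ^ zF1) ^^^ trSel (Nat.testBit zD0 q) (2 ^ zF0 ^^^ 2 ^ zF1)) ^^^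
    trSel (Nat.testBit zD2 q) (2 ^ zF2 ^^^ 2 ^ zF1)) ^^^
    trSel (Nat.testBit zD3 q) (2 ^ zF3 ^^^ 2 ^ zF1)) ^^^
    trSel (Nat.testBit zD4 q) (2 ^ zF4 ^^^ 2 ^ zF1)

def zAffOK (q : ℕ) : Bool :=
  Nat.testBit 5279 q || (gIsCw (zAff q ^^^ zU.getD q 0) &&
    Nat.beq (Nat.land (zU.getD q 0) 5279) (zU.getD q 0) && Nat.testBit zD1 q)

theorem zAff_all : gAllLt 24 zAffOK = true := by decide +kernel

theorem duDot_vanish {m : ℕ} {c : GolayPt → ZMod 2} (h : ∀ p ∈ gSupp m, c p = 0) :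
    duDot m c = 0 := by
  unfold duDot
  apply Finset.sum_eq_zero
  intro p _
  rw [gDec_eq_ite]
  by_cases hp : p ∈ gSupp m
  · rw [h p hp, mul_zero]
  · rw [if_neg hp, zero_mul]

theorem z_vanish {g : Equiv.Perm GolayPt} (hg : g • gO0 = gO0) (a : Fin 5) {p : GolayPt}
    (hp : p ∈ gO0) : gDec (zDf a) (g p) = 0 := by
  have h1 : g p ∈ gO0 := by
    have h := Finset.smul_mem_smul_finset (a := g) hp
    rw [hg] at h
    exact h
  rw [gDec_eq_ite, if_neg]
  intro h2
  have h3 : g p ∈ gSupp (zDf a) ∩ gSupp 5279 := Finset.mem_inter.2 ⟨h2, h1⟩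
  rw [gSupp_inter, zD_out a, gSupp_zero] at h3
  exact absurd h3 (Finset.notMem_empty _)

theorem z_bool10 : ∀ cq c0 c1 c2 c3 c4 β0 β2 β3 β4 : ZMod 2,
    cq + c1 + β0 * (c0 + c1) + β2 * (c2 + c1) + β3 * (c3 + c1) + β4 * (c4 + c1) + 0 = 0 →
    cq = (c0 + c1) * β0 + c1 * 1 + (c2 + c1) * β2 + (c3 + c1) * β3 + (c4 + c1) * β4 := by
  decide

theorem z_aff {g : Equiv.Perm GolayPt} (hg : g ∈ fSub [q10AX] 0) (a : Fin 5) {q : ℕ}
    (hq : q < 24) (hout : Nat.testBit 5279 q = false) :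
    gDec (zDf a) (g (gPt q)) = ∑ b, zMat g a b * gDec (zDf b) (gPt q) := by
  obtain ⟨hgM, hgO⟩ := mem_fSub_oct.1 hg
  have hok := (gAllLt_iff 24 _).1 zAff_all q hq
  unfold zAffOK at hok
  rw [hout, Bool.false_or, Bool.and_eq_true, Bool.and_eq_true] at hok
  obtain ⟨⟨hcw, hU⟩, hD1⟩ := hok
  have hc : (fun y => gDec (zDf a) (g y)) ∈ golayCode := tr_code_comp hgM (zD_mem a)
  have h0 : duDot (zAff q ^^^ zU.getD q 0) (fun y => gDec (zDf a) (g y)) = 0 :=
    golay_orth _ _ (gIsCw_mem hcw) hc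
  have hUz : duDot (zU.getD q 0) (fun y => gDec (zDf a) (g y)) = 0 := by
    apply duDot_vanish
    intro p hp
    apply z_vanish hgO a
    have hU' : Nat.land (zU.getD q 0) 5279 = zU.getD q 0 := Nat.eq_of_beq_eq_true hU
    rw [← hU', ← gSupp_inter] at hp
    exact (Finset.mem_inter.1 hp).2
  have l0 : zF0 < 24 := by decide
  have l1 : zF1 < 24 := by decide
  have l2 : zF2 < 24 := by decide
  have l3 : zF3 < 24 := by decide
  have l4 : zF4 < 24 := by decide
  unfold zAff at h0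
  rw [duDot_xor, duDot_xor, duDot_xor, duDot_xor, duDot_xor, duDot_xor, trSel_dot, trSel_dot,
    trSel_dot, trSel_dot, duDot_xor, duDot_xor, duDot_xor, duDot_xor, hUz,
    duDot_two_pow hq, duDot_two_pow l0, duDot_two_pow l1, duDot_two_pow l2,
    duDot_two_pow l3, duDot_two_pow l4] at h0
  rw [Fin.sum_univ_five, gDec_gPt _ hq, gDec_gPt _ hq, gDec_gPt _ hq, gDec_gPt _ hq,
    gDec_gPt _ hq]
  have e1 : (if (zDf 1).testBit q = true then (1 : ZMod 2) else 0) = 1 := by
    rw [if_pos]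
    exact hD1
  rw [e1]
  exact z_bool10 _ _ _ _ _ _ _ _ _ _ h0


theorem z_out_pt {h : Equiv.Perm GolayPt} (hh : h ∈ fSub [q10AX] 0) {q : ℕ} (hq : q < 24)
    (hout : Nat.testBit 5279 q = false) :
    ∃ q', q' < 24 ∧ Nat.testBit 5279 q' = false ∧ h (gPt q) = gPt q' := by
  obtain ⟨hM, hO⟩ := mem_fSub_oct.1 hh
  refine ⟨gIdx (h (gPt q)), gIdx_lt _, ?_, (gPt_gIdx _).symm⟩
  by_contra hc
  rw [Bool.not_eq_false] at hc
  have h1 : h (gPt q) ∈ gO0 := (mem_gSupp _ _).2 hc
  have h1' : h • gPt q ∈ h • gO0 := by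
    rw [hO]
    exact h1
  have h2 : gPt q ∈ gO0 := (Finset.smul_mem_smul_finset_iff h).1 h1'
  have h3 := (mem_gSupp _ _).1 h2
  rw [gIdx_gPt hq, hout] at h3
  exact absurd h3 (by decide)

theorem zMat_mul {g h : Equiv.Perm GolayPt} (hg : g ∈ fSub [q10AX] 0)
    (hh : h ∈ fSub [q10AX] 0) : zMat (g * h) = zMat g * zMat h := by
  have key : ∀ (a b : Fin 5), gDec (zDf a) (g (h (gPt (zFf b)))) =
      ∑ k, zMat g a k * gDec (zDf k) (h (gPt (zFf b))) := by
    intro a b
    obtain ⟨q', hq', hout', e⟩ := z_out_pt hh (zF_lt b) (zF_out b)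
    rw [e]
    exact z_aff hg a hq' hout'
  ext a b
  rw [Matrix.mul_apply]
  by_cases hb : b = 1
  · subst hb
    have e1 : zMat (g * h) a 1 = gDec (zDf a) (g (h (gPt (zFf 1)))) := rfl
    have e2 : ∀ k, zMat h k 1 = gDec (zDf k) (h (gPt (zFf 1))) := fun k => rfl
    rw [e1, key a 1]
    exact Finset.sum_congr rfl (fun k _ => by rw [e2 k])
  · have e1 : zMat (g * h) a b = gDec (zDf a) (g (h (gPt (zFf b)))) +
        gDec (zDf a) (g (h (gPt (zFf 1)))) := by
      show (if b = 1 then _ else _) = _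
      rw [if_neg hb]
      rfl
    have e2 : ∀ k, zMat h k b = gDec (zDf k) (h (gPt (zFf b))) +
        gDec (zDf k) (h (gPt (zFf 1))) := by
      intro k
      show (if b = 1 then _ else _) = _
      rw [if_neg hb]
      rfl
    rw [e1, key a b, key a 1, ← Finset.sum_add_distrib]
    exact Finset.sum_congr rfl (fun k _ => by rw [e2 k, mul_add])

theorem zOne_tab : ∀ a b : Fin 5,
    (if b = 1 then (if (zDf a).testBit (zFf 1) = true then (1 : ZMod 2) else 0)
      else (if (zDf a).testBit (zFf b) = true then (1 : ZMod 2) else 0) +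
        (if (zDf a).testBit (zFf 1) = true then (1 : ZMod 2) else 0)) =
      if a = b then 1 else 0 := by
  decide +kernel

theorem zMat_one : zMat 1 = 1 := by
  ext a b
  have hx : ∀ b' : Fin 5, gDec (zDf a) ((1 : Equiv.Perm GolayPt) (gPt (zFf b'))) =
      (if (zDf a).testBit (zFf b') = true then 1 else 0) := fun b' => gDec_gPt _ (zF_lt b')
  show (if b = 1 then gDec (zDf a) ((1 : Equiv.Perm GolayPt) (gPt (zFf 1)))
    else gDec (zDf a) ((1 : Equiv.Perm GolayPt) (gPt (zFf b))) +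
      gDec (zDf a) ((1 : Equiv.Perm GolayPt) (gPt (zFf 1)))) = (1 : Matrix _ _ _) a b
  rw [hx 1, hx b, Matrix.one_apply]
  exact zOne_tab a b

theorem z2_ne (x : ZMod 2) (h : x ≠ 0) : x = 1 := by
  revert x; decide

theorem zMat_det {g : Equiv.Perm GolayPt} (hg : g ∈ fSub [q10AX] 0) : (zMat g).det = 1 := by
  have h1 : zMat g * zMat g⁻¹ = 1 := by
    rw [← zMat_mul hg ((fSub [q10AX] 0).inv_mem hg), mul_inv_cancel, zMat_one]
  have h2 := congrArg Matrix.det h1
  rw [Matrix.det_mul, Matrix.det_one] at h2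
  apply z2_ne
  intro h0
  rw [h0, zero_mul] at h2
  exact zero_ne_one h2

/-! ### the kernel -/

theorem zLab_inj : gAllLt 24 (fun q => gAllLt 24 (fun q' =>
    Nat.testBit 5279 q || Nat.testBit 5279 q' || Nat.beq q' q ||
    !((Nat.testBit zD0 q' == Nat.testBit zD0 q) && (Nat.testBit zD2 q' == Nat.testBit zD2 q) &&
      (Nat.testBit zD3 q' == Nat.testBit zD3 q) && (Nat.testBit zD4 q' == Nat.testBit zD4 q)))) =
    true := by decide +kernel

theorem z_close_ok : gCloseOK [] 16771936 zClose = true := by decide +kernel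

theorem gSub_out_bot : gSub [] 16771936 = ⊥ := close_sound [] zClose 16771936 z_close_ok

theorem z_out_mask : gAllLt 24 (fun i => !(Nat.testBit 16771936 i) || !(Nat.testBit 5279 i)) =
    true := by decide +kernel

theorem z_ite_inj {b1 b2 : Bool}
    (h : (if b1 = true then (1 : ZMod 2) else 0) = if b2 = true then 1 else 0) : b1 = b2 := by
  revert h
  cases b1 <;> cases b2 <;> decide

theorem zMat_ker {g : Equiv.Perm GolayPt} (hg : g ∈ fSub [q10AX] 0) (h1 : zMat g = 1) :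
    g = 1 := by
  have hfix : ∀ q, q < 24 → Nat.testBit 5279 q = false → g (gPt q) = gPt q := by
    intro q hq hout
    obtain ⟨q', hq', hout', e⟩ := z_out_pt hg hq hout
    have hlab : ∀ a : Fin 5, (zDf a).testBit q' = (zDf a).testBit q := by
      intro a
      have h2 := z_aff hg a hq hout
      have h3 : ∑ b, (1 : Matrix (Fin 5) (Fin 5) (ZMod 2)) a b * gDec (zDf b) (gPt q) =
          gDec (zDf a) (gPt q) := by
        simp [Matrix.one_apply]
      rw [h1, e, gDec_gPt _ hq', h3, gDec_gPt _ hq] at h2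
      exact z_ite_inj h2
    have l0 : zD0.testBit q' = zD0.testBit q := hlab 0
    have l2 : zD2.testBit q' = zD2.testBit q := hlab 2
    have l3 : zD3.testBit q' = zD3.testBit q := hlab 3
    have l4 : zD4.testBit q' = zD4.testBit q := hlab 4
    have hi := (gAllLt_iff 24 _).1 ((gAllLt_iff 24 _).1 zLab_inj q hq) q' hq'
    rw [hout, hout', l0, l2, l3, l4] at hi
    simp only [Bool.false_or, beq_self_eq_true, Bool.and_self, Bool.not_true, Bool.or_false] at hi
    rw [e, Nat.eq_of_beq_eq_true hi]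
  have hPt : PtFix g 16771936 := by
    intro p hp
    have h2 := (gAllLt_iff 24 _).1 z_out_mask (gIdx p) (gIdx_lt p)
    rw [hp] at h2
    simp only [Bool.not_true, Bool.false_or, Bool.not_eq_true'] at h2
    have h3 := hfix (gIdx p) (gIdx_lt p) h2
    rw [gPt_gIdx] at h3
    exact h3
  have hmem : g ∈ gSub [] 16771936 := mem_gSub.2 ⟨hg.1, by simp, hPt⟩
  rw [gSub_out_bot, Subgroup.mem_bot] at hmem
  exact hmem

end Cfsg.Agent.Helper3
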