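import Cfsg.Agent.Helper3.Fam.Cent2A
import Cfsg.Agent.Helper3.Fam.Syl7

set_option autoImplicit false

namespace Cfsg.Agent.Helper3

open Cfsg
open scoped Pointwise

/-! ### the involution -/

/-- the mask of the pair `{i, z i}` -/
def zPm (i : ℕ) : ℕ := Nat.lor (Nat.shiftLeft 1 i) (Nat.shiftLeft 1 (gWordAt zW i))

theorem zW_sq : gAllLt 24 (fun i => Nat.beq (gWordAt zW (gWordAt zW i)) i) = true := by
  decide +kernel

theorem zW_fix : gAllLt 24 (fun i => Nat.testBit 5279 i == Nat.beq (gWordAt zW i) i) = true := by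
  decide +kernel

theorem zW_lab : gAllLt 24 (fun i => Nat.testBit 5279 i ||
    ((Nat.testBit zD0 (gWordAt zW i) == !Nat.testBit zD0 i) &&
      (Nat.testBit zD1 (gWordAt zW i) == Nat.testBit zD1 i) &&
      (Nat.testBit zD2 (gWordAt zW i) == Nat.testBit zD2 i) &&
      (Nat.testBit zD3 (gWordAt zW i) == Nat.testBit zD3 i) &&
      (Nat.testBit zD4 (gWordAt zW i) == Nat.testBit zD4 i))) = true := by
  decide +kernel

theorem zW_pm : gAllLt 24 (fun i => Nat.testBit 5279 i || gMemL (zPm i) zc1X) = true := by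
  decide +kernel

theorem zX_chk : zc1X.all (fun m => (List.range 24).any
    (fun q => !Nat.testBit 5279 q && Nat.beq m (zPm q))) = true := by
  decide +kernel

theorem zW_F : gWordAt zW zF1 = zF0 := by decide +kernel

theorem z_apply {i : ℕ} (hi : i < 24) : gWordPerm zW (gPt i) = gPt (gWordAt zW i) :=
  (rep_word zW).apply_gPt hi

theorem zW_lt {i : ℕ} (hi : i < 24) : gWordAt zW i < 24 := by
  have h := word_apply_idx zW (gPt i)
  rw [gIdx_gPt hi] at h
  rw [← h]
  exact gIdx_lt _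

theorem z_sq (p : GolayPt) : gWordPerm zW (gWordPerm zW p) = p := by
  have h := (gAllLt_iff 24 _).1 zW_sq (gIdx p) (gIdx_lt p)
  rw [← gPt_gIdx p, z_apply (gIdx_lt p), z_apply (zW_lt (gIdx_lt p)), Nat.eq_of_beq_eq_true h]

theorem z_fix_iff (p : GolayPt) : p ∈ gO0 ↔ gWordPerm zW p = p := by
  have h := (gAllLt_iff 24 _).1 zW_fix (gIdx p) (gIdx_lt p)
  rw [beq_iff_eq] at h
  have e : gWordPerm zW p = gPt (gWordAt zW (gIdx p)) := by
    rw [← z_apply (gIdx_lt p), gPt_gIdx]
  show p ∈ gSupp 5279 ↔ _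
  rw [mem_gSupp, h, e]
  constructor
  · intro h1
    rw [Nat.eq_of_beq_eq_true h1, gPt_gIdx]
  · intro h1
    have h2 := congrArg gIdx h1
    rw [gIdx_gPt (zW_lt (gIdx_lt p))] at h2
    rw [h2]
    exact Nat.beq_refl _

theorem z_pair {i : ℕ} (hi : i < 24) :
    gSupp (zPm i) = {gPt i, gWordPerm zW (gPt i)} := by
  show gSupp (Nat.shiftLeft 1 i ||| Nat.shiftLeft 1 (gWordAt zW i)) = _
  rw [gSupp_or, gSupp_bit hi, gSupp_bit (zW_lt hi), z_apply hi]
  exact (Finset.insert_eq _ _).symm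

theorem z_pm_mem {i : ℕ} (hi : i < 24) (hout : Nat.testBit 5279 i = false) : zPm i ∈ zc1X := by
  have h := (gAllLt_iff 24 _).1 zW_pm i hi
  rw [hout, Bool.false_or] at h
  exact (gMemL_iff _ _).1 h

theorem zX_spec {m : ℕ} (hm : m ∈ zc1X) :
    ∃ q, q < 24 ∧ Nat.testBit 5279 q = false ∧ m = zPm q := by
  have h := List.all_eq_true.1 zX_chk m hm
  rw [List.any_eq_true] at h
  obtain ⟨q, hq, h1⟩ := h
  rw [Bool.and_eq_true, Bool.not_eq_true'] at h1
  exact ⟨q, List.mem_range.1 hq, h1.1, Nat.eq_of_beq_eq_true h1.2⟩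

theorem z_shift_bool : ∀ b c : Bool, ∀ a0 : Prop, [Decidable a0] → (c = (b != decide a0)) →
    (if c = true then (1 : ZMod 2) else 0) + (if b = true then 1 else 0) =
      if a0 then 1 else 0 := by
  intro b c a0 inst h
  subst h
  by_cases ha : a0 <;> cases b <;> simp [ha] <;> decide

theorem z_shift (a : Fin 5) {q : ℕ} (hq : q < 24) (hout : Nat.testBit 5279 q = false) :
    gDec (zDf a) (gWordPerm zW (gPt q)) + gDec (zDf a) (gPt q) = if a = 0 then 1 else 0 := by
  have h := (gAllLt_iff 24 _).1 zW_lab q hq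
  rw [hout, Bool.false_or] at h
  simp only [Bool.and_eq_true, beq_iff_eq] at h
  obtain ⟨⟨⟨⟨h0, h1⟩, h2⟩, h3⟩, h4⟩ := h
  rw [z_apply hq, gDec_gPt _ (zW_lt hq), gDec_gPt _ hq]
  apply z_shift_bool
  fin_cases a
  · show zD0.testBit (gWordAt zW q) = (zD0.testBit q != decide ((0 : Fin 5) = 0))
    rw [h0]
    cases zD0.testBit q <;> rfl
  · show zD1.testBit (gWordAt zW q) = (zD1.testBit q != decide ((1 : Fin 5) = 0))
    rw [h1]
    cases zD1.testBit q <;> rfl
  · show zD2.testBit (gWordAt zW q) = (zD2.testBit q != decide ((2 : Fin 5) = 0))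
    rw [h2]
    cases zD2.testBit q <;> rfl
  · show zD3.testBit (gWordAt zW q) = (zD3.testBit q != decide ((3 : Fin 5) = 0))
    rw [h3]
    cases zD3.testBit q <;> rfl
  · show zD4.testBit (gWordAt zW q) = (zD4.testBit q != decide ((4 : Fin 5) = 0))
    rw [h4]
    cases zD4.testBit q <;> rfl

/-! ### the centralizer of the involution -/

theorem mem_zC {g : Equiv.Perm GolayPt} :
    g ∈ fSub (zc1X :: [q10AX]) 0 ↔ g ∈ fSub [q10AX] 0 ∧ g • gFam zc1X = gFam zc1X := by
  rw [← fSub_cons, Subgroup.mem_inf, MulAction.mem_stabilizer_iff]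

theorem z_comm_mem {g : Equiv.Perm GolayPt} (hg : g ∈ M24)
    (hcomm : g * gWordPerm zW = gWordPerm zW * g) : g ∈ fSub (zc1X :: [q10AX]) 0 := by
  have hO : g • gO0 = gO0 := fix_smul_of_comm hcomm gO0 z_fix_iff
  have hg0 : g ∈ fSub [q10AX] 0 := mem_fSub_oct.2 ⟨hg, hO⟩
  refine mem_zC.2 ⟨hg0, ?_⟩
  apply Finset.eq_of_subset_of_card_le
  · intro s hs
    obtain ⟨t, ht, rfl⟩ := Finset.mem_smul_finset.1 hs
    obtain ⟨m, hm, rfl⟩ := mem_gFam.1 ht
    obtain ⟨q, hq, hout, rfl⟩ := zX_spec hm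
    obtain ⟨q', hq', hout', e⟩ := z_out_pt hg0 hq hout
    have e2 : g (gWordPerm zW (gPt q)) = gWordPerm zW (g (gPt q)) :=
      congrArg (fun f : Equiv.Perm GolayPt => f (gPt q)) hcomm
    have e3 : g • gSupp (zPm q) = gSupp (zPm q') := by
      rw [z_pair hq, z_pair hq', Finset.smul_finset_insert, Finset.smul_finset_singleton]
      show ({g (gPt q), g (gWordPerm zW (gPt q))} : Finset GolayPt) = _
      rw [e2, e]
    rw [e3]
    exact mem_gFam.2 ⟨_, z_pm_mem hq' hout', rfl⟩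
  · exact le_of_eq (by rw [Finset.card_smul_finset])

theorem z_mem_comm {g : Equiv.Perm GolayPt} (hg : g ∈ fSub (zc1X :: [q10AX]) 0) :
    g * gWordPerm zW = gWordPerm zW * g := by
  obtain ⟨hg0, hfam⟩ := mem_zC.1 hg
  obtain ⟨hgM, hO⟩ := mem_fSub_oct.1 hg0
  apply Equiv.ext
  intro p
  show g (gWordPerm zW p) = gWordPerm zW (g p)
  by_cases hp : p ∈ gO0
  · rw [(z_fix_iff p).1 hp]
    have h1 : g p ∈ gO0 := by
      have h := Finset.smul_mem_smul_finset (a := g) hp
      rw [hO] at h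
      exact h
    exact ((z_fix_iff _).1 h1).symm
  · have hout : Nat.testBit 5279 (gIdx p) = false := by
      by_contra hc
      rw [Bool.not_eq_false] at hc
      exact hp ((mem_gSupp _ _).2 hc)
    have hi := gIdx_lt p
    have ht : gSupp (zPm (gIdx p)) ∈ gFam zc1X := mem_gFam.2 ⟨_, z_pm_mem hi hout, rfl⟩
    have ht2 : g • gSupp (zPm (gIdx p)) ∈ gFam zc1X := by
      rw [← hfam]
      exact Finset.smul_mem_smul_finset ht
    obtain ⟨m, hm, hms⟩ := mem_gFam.1 ht2
    obtain ⟨j, hj, houtj, rfl⟩ := zX_spec hm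
    rw [z_pair hi, z_pair hj, gPt_gIdx, Finset.smul_finset_insert,
      Finset.smul_finset_singleton] at hms
    have m1 : g p ∈ ({gPt j, gWordPerm zW (gPt j)} : Finset GolayPt) := by
      rw [hms]
      exact Finset.mem_insert_self _ _
    have m2 : g (gWordPerm zW p) ∈ ({gPt j, gWordPerm zW (gPt j)} : Finset GolayPt) := by
      rw [hms]
      exact Finset.mem_insert_of_mem (Finset.mem_singleton_self _)
    have hne : g (gWordPerm zW p) ≠ g p := by
      intro e
      exact hp ((z_fix_iff p).2 (g.injective e))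
    rw [Finset.mem_insert, Finset.mem_singleton] at m1 m2
    rcases m1 with e1 | e1
    · rcases m2 with e2 | e2
      · exact absurd (e2.trans e1.symm) hne
      · rw [e2, e1]
    · rcases m2 with e2 | e2
      · rw [e2, e1, z_sq]
      · exact absurd (e2.trans e1.symm) hne

end Cfsg.Agent.Helper3
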