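import Cfsg.Agent.Helper3.Fam.Cent2Ab
import Cfsg.Agent.Helper3.Fam.M9

set_option autoImplicit false

namespace Cfsg.Agent.Helper3

open Cfsg
open scoped Pointwise

/-! ### matrices commuting with a transvection -/

/-- the group `SL(5, 2)` -/
abbrev S52 : Type := Matrix.SpecialLinearGroup (Fin 5) (ZMod 2)

theorem t5_mulE (M : Matrix (Fin 5) (Fin 5) (ZMod 2)) (a b : Fin 5) :
    (M * Matrix.single (0 : Fin 5) (1 : Fin 5) (1 : ZMod 2)) a b = if b = 1 then M a 0 else 0 := by
  by_cases hb : b = 1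
  · subst hb
    rw [Matrix.mul_single_apply_same, mul_one, if_pos rfl]
  · rw [if_neg hb, Matrix.mul_apply]
    apply Finset.sum_eq_zero
    intro k _
    rw [Matrix.single_apply, if_neg, mul_zero]
    rintro ⟨-, h⟩
    exact hb h.symm

theorem t5_Emul (M : Matrix (Fin 5) (Fin 5) (ZMod 2)) (a b : Fin 5) :
    (Matrix.single (0 : Fin 5) (1 : Fin 5) (1 : ZMod 2) * M) a b = if a = 0 then M 1 b else 0 := by
  by_cases ha : a = 0
  · subst ha
    rw [Matrix.single_mul_apply_same, one_mul, if_pos rfl]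
  · rw [if_neg ha, Matrix.mul_apply]
    apply Finset.sum_eq_zero
    intro k _
    rw [Matrix.single_apply, if_neg, zero_mul]
    rintro ⟨h, -⟩
    exact ha h.symm

theorem t5_comm_iff (M : Matrix (Fin 5) (Fin 5) (ZMod 2)) :
    M * Matrix.transvection 0 1 1 = Matrix.transvection 0 1 1 * M ↔
      ∀ a b : Fin 5, (if b = 1 then M a 0 else 0) = if a = 0 then M 1 b else 0 := by
  unfold Matrix.transvection
  rw [Matrix.mul_add, Matrix.add_mul, Matrix.mul_one, Matrix.one_mul, add_right_inj]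
  constructor
  · intro h a b
    rw [← t5_mulE, ← t5_Emul, h]
  · intro h
    ext a b
    rw [t5_mulE, t5_Emul]
    exact h a b

theorem t5_of_struct (M : Matrix (Fin 5) (Fin 5) (ZMod 2))
    (hcol : ∀ a, M a 0 = if a = 0 then 1 else 0) (hrow : ∀ b, M 1 b = if b = 1 then 1 else 0) :
    M * Matrix.transvection 0 1 1 = Matrix.transvection 0 1 1 * M := by
  rw [t5_comm_iff]
  intro a b
  rw [hcol a, hrow b]
  by_cases ha : a = 0 <;> by_cases hb : b = 1 <;> simp [ha, hb]

theorem t5_struct (M : Matrix (Fin 5) (Fin 5) (ZMod 2)) (hdet : M.det = 1)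
    (h : M * Matrix.transvection 0 1 1 = Matrix.transvection 0 1 1 * M) :
    (∀ a, M a 0 = if a = 0 then 1 else 0) ∧ (∀ b, M 1 b = if b = 1 then 1 else 0) := by
  rw [t5_comm_iff] at h
  have hrow0 : ∀ b, b ≠ 1 → M 1 b = 0 := by
    intro b hb
    have h1 := h 0 b
    rw [if_neg hb, if_pos rfl] at h1
    exact h1.symm
  have h11 : M 1 1 = 1 := by
    apply z2_ne
    intro h0
    have hz : M.det = 0 := by
      apply Matrix.det_eq_zero_of_row_eq_zero 1
      intro j
      by_cases hj : j = 1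
      · rw [hj, h0]
      · exact hrow0 j hj
    rw [hz] at hdet
    exact zero_ne_one hdet
  constructor
  · intro a
    have h1 := h a 1
    rw [if_pos rfl, h11] at h1
    exact h1
  · intro b
    by_cases hb : b = 1
    · rw [hb, h11, if_pos rfl]
    · rw [hrow0 b hb, if_neg hb]

/-- the lower right block -/
def t5B (M : Matrix (Fin 5) (Fin 5) (ZMod 2)) : Matrix (Fin 3) (Fin 3) (ZMod 2) :=
  !![M 2 2, M 2 3, M 2 4; M 3 2, M 3 3, M 3 4; M 4 2, M 4 3, M 4 4]

theorem t5B_mul (M N : Matrix (Fin 5) (Fin 5) (ZMod 2))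
    (hcol : ∀ a, M a 0 = if a = 0 then 1 else 0) (hrow : ∀ b, N 1 b = if b = 1 then 1 else 0) :
    t5B (M * N) = t5B M * t5B N := by
  have c2 : M 2 0 = 0 := by rw [hcol]; rfl
  have c3 : M 3 0 = 0 := by rw [hcol]; rfl
  have c4 : M 4 0 = 0 := by rw [hcol]; rfl
  have r2 : N 1 2 = 0 := by rw [hrow]; rfl
  have r3 : N 1 3 = 0 := by rw [hrow]; rfl
  have r4 : N 1 4 = 0 := by rw [hrow]; rfl
  ext i j
  fin_cases i <;> fin_cases j <;>
    simp [t5B, Matrix.mul_apply, Fin.sum_univ_five, Fin.sum_univ_three, c2, c3, c4, r2, r3, r4]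

theorem t5B_one : t5B 1 = 1 := by
  ext i j
  fin_cases i <;> fin_cases j <;> simp [t5B]


theorem t5_cent_struct (s : S52)
    (hs : (s : Matrix (Fin 5) (Fin 5) (ZMod 2)) = Matrix.transvection 0 1 1)
    (x : S52) (hx : x ∈ Subgroup.centralizer ({s} : Set S52)) :
    (∀ a, x.1 a 0 = if a = 0 then 1 else 0) ∧ (∀ b, x.1 1 b = if b = 1 then 1 else 0) := by
  rw [Subgroup.mem_centralizer_iff] at hx
  have h := hx s (Set.mem_singleton s)
  have h' : s.1 * x.1 = x.1 * s.1 := congrArg Subtype.val h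
  rw [hs] at h'
  exact t5_struct x.1 x.2 h'.symm

theorem t5_inv_mul (s : S52) (x : ↥(Subgroup.centralizer ({s} : Set S52))) :
    x.1.1 * (x⁻¹).1.1 = 1 ∧ (x⁻¹).1.1 * x.1.1 = 1 := by
  constructor
  · have h1 : (x * x⁻¹).1 = (1 : ↥(Subgroup.centralizer ({s} : Set S52))).1 :=
      congrArg Subtype.val (mul_inv_cancel x)
    rw [Subgroup.coe_mul, Subgroup.coe_one] at h1
    have h2 := congrArg Subtype.val h1
    rw [Matrix.SpecialLinearGroup.coe_mul] at h2
    exact h2
  · have h1 : (x⁻¹ * x).1 = (1 : ↥(Subgroup.centralizer ({s} : Set S52))).1 :=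
      congrArg Subtype.val (inv_mul_cancel x)
    rw [Subgroup.coe_mul, Subgroup.coe_one] at h1
    have h2 := congrArg Subtype.val h1
    rw [Matrix.SpecialLinearGroup.coe_mul] at h2
    exact h2

/-- the block of an element of the centralizer, as an invertible matrix -/
noncomputable def t5GL (s : S52)
    (hs : (s : Matrix (Fin 5) (Fin 5) (ZMod 2)) = Matrix.transvection 0 1 1)
    (x : ↥(Subgroup.centralizer ({s} : Set S52))) : GL (Fin 3) (ZMod 2) :=
  ⟨t5B x.1.1, t5B (x⁻¹).1.1, by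
    rw [← t5B_mul _ _ (t5_cent_struct s hs x.1 x.2).1 (t5_cent_struct s hs (x⁻¹).1 (x⁻¹).2).2,
      (t5_inv_mul s x).1, t5B_one], by
    rw [← t5B_mul _ _ (t5_cent_struct s hs (x⁻¹).1 (x⁻¹).2).1 (t5_cent_struct s hs x.1 x.2).2,
      (t5_inv_mul s x).2, t5B_one]⟩

/-- the coordinates of an element of the centralizer -/
noncomputable def t5phi (s : S52)
    (hs : (s : Matrix (Fin 5) (Fin 5) (ZMod 2)) = Matrix.transvection 0 1 1)
    (x : ↥(Subgroup.centralizer ({s} : Set S52))) :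
    (Fin 4 → ZMod 2) × (Fin 3 → ZMod 2) × GL (Fin 3) (ZMod 2) :=
  (![x.1.1 0 1, x.1.1 0 2, x.1.1 0 3, x.1.1 0 4], ![x.1.1 2 1, x.1.1 3 1, x.1.1 4 1],
    t5GL s hs x)

theorem t5phi_inj (s : S52)
    (hs : (s : Matrix (Fin 5) (Fin 5) (ZMod 2)) = Matrix.transvection 0 1 1) :
    Function.Injective (t5phi s hs) := by
  intro x y h
  have hx := t5_cent_struct s hs x.1 x.2
  have hy := t5_cent_struct s hs y.1 y.2
  have h1 : (![x.1.1 0 1, x.1.1 0 2, x.1.1 0 3, x.1.1 0 4] : Fin 4 → ZMod 2) =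
      ![y.1.1 0 1, y.1.1 0 2, y.1.1 0 3, y.1.1 0 4] := congrArg Prod.fst h
  have h2 : (![x.1.1 2 1, x.1.1 3 1, x.1.1 4 1] : Fin 3 → ZMod 2) =
      ![y.1.1 2 1, y.1.1 3 1, y.1.1 4 1] := congrArg (fun t => t.2.1) h
  have h3 : t5GL s hs x = t5GL s hs y := congrArg (fun t => t.2.2) h
  have h4 : t5B x.1.1 = t5B y.1.1 := congrArg Units.val h3
  apply Subtype.ext
  apply Subtype.ext
  ext a b
  fin_cases a <;> fin_cases b
  · exact (hx.1 0).trans (hy.1 0).symm
  · exact congrFun h1 0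
  · exact congrFun h1 1
  · exact congrFun h1 2
  · exact congrFun h1 3
  · exact (hx.1 1).trans (hy.1 1).symm
  · exact (hx.2 1).trans (hy.2 1).symm
  · exact (hx.2 2).trans (hy.2 2).symm
  · exact (hx.2 3).trans (hy.2 3).symm
  · exact (hx.2 4).trans (hy.2 4).symm
  · exact (hx.1 2).trans (hy.1 2).symm
  · exact congrFun h2 0
  · exact congrFun (congrFun h4 0) 0
  · exact congrFun (congrFun h4 0) 1
  · exact congrFun (congrFun h4 0) 2
  · exact (hx.1 3).trans (hy.1 3).symm
  · exact congrFun h2 1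
  · exact congrFun (congrFun h4 1) 0
  · exact congrFun (congrFun h4 1) 1
  · exact congrFun (congrFun h4 1) 2
  · exact (hx.1 4).trans (hy.1 4).symm
  · exact congrFun h2 2
  · exact congrFun (congrFun h4 2) 0
  · exact congrFun (congrFun h4 2) 1
  · exact congrFun (congrFun h4 2) 2

theorem t5_card_target :
    Nat.card ((Fin 4 → ZMod 2) × (Fin 3 → ZMod 2) × GL (Fin 3) (ZMod 2)) = 21504 := by
  rw [Nat.card_prod, Nat.card_prod, Nat.card_fun, Nat.card_fun, Matrix.card_GL_field,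
    Fin.prod_univ_three]
  simp [ZMod.card]

/-! ### the isomorphism -/

theorem zMat_col {g : Equiv.Perm GolayPt} (hg : g ∈ fSub (zc1X :: [q10AX]) 0) (a : Fin 5) :
    zMat g a 0 = if a = 0 then 1 else 0 := by
  have hg0 := (mem_zC.1 hg).1
  have hcomm := z_mem_comm hg
  obtain ⟨q', hq', hout', e⟩ := z_out_pt hg0 (zF_lt 1) (zF_out 1)
  have e0 : gPt zF0 = gWordPerm zW (gPt zF1) := by
    rw [z_apply (by decide : zF1 < 24), zW_F]
  have e2 : g (gWordPerm zW (gPt zF1)) = gWordPerm zW (g (gPt zF1)) :=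
    congrArg (fun f : Equiv.Perm GolayPt => f (gPt zF1)) hcomm
  have e' : g (gPt zF1) = gPt q' := e
  show gDec (zDf a) (g (gPt zF0)) + gDec (zDf a) (g (gPt zF1)) = _
  rw [e0, e2, e']
  exact z_shift a hq' hout'

theorem zMat_row {g : Equiv.Perm GolayPt} (hg : g ∈ fSub [q10AX] 0) (b : Fin 5) :
    zMat g 1 b = if b = 1 then 1 else 0 := by
  have key : ∀ b' : Fin 5, gDec (zDf 1) (g (gPt (zFf b'))) = 1 := by
    intro b'
    obtain ⟨q', hq', hout', e⟩ := z_out_pt hg (zF_lt b') (zF_out b')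
    rw [e, gDec_gPt _ hq']
    have hok := (gAllLt_iff 24 _).1 zAff_all q' hq'
    unfold zAffOK at hok
    rw [hout', Bool.false_or, Bool.and_eq_true] at hok
    rw [if_pos]
    exact hok.2
  show (if b = 1 then gDec (zDf 1) (g (gPt (zFf 1)))
    else gDec (zDf 1) (g (gPt (zFf b))) + gDec (zDf 1) (g (gPt (zFf 1)))) = _
  rw [key 1, key b]
  by_cases hb : b = 1
  · rw [if_pos hb, if_pos hb]
  · rw [if_neg hb, if_neg hb]
    decide

/-- the matrix of an element stabilizing the octad, as an element of `SL(5, 2)` -/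
noncomputable def zSL (g : Equiv.Perm GolayPt) (hg : g ∈ fSub [q10AX] 0) : S52 :=
  ⟨zMat g, zMat_det hg⟩

theorem zSL_val (g : Equiv.Perm GolayPt) (hg : g ∈ fSub [q10AX] 0) :
    ((zSL g hg : S52) : Matrix (Fin 5) (Fin 5) (ZMod 2)) = zMat g := rfl

/-- the homomorphism from the centralizer of the involution to the centralizer of the
transvection -/
noncomputable def zTheta (s : S52)
    (hs : (s : Matrix (Fin 5) (Fin 5) (ZMod 2)) = Matrix.transvection 0 1 1) :
    ↥(fSub (zc1X :: [q10AX]) 0) →* ↥(Subgroup.centralizer ({s} : Set S52)) where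
  toFun g := ⟨zSL g.1 (mem_zC.1 g.2).1, by
    rw [Subgroup.mem_centralizer_iff]
    intro h hh
    rw [Set.mem_singleton_iff] at hh
    rw [hh]
    apply Subtype.ext
    rw [Matrix.SpecialLinearGroup.coe_mul, Matrix.SpecialLinearGroup.coe_mul, zSL_val, hs]
    exact (t5_of_struct _ (zMat_col g.2) (zMat_row (mem_zC.1 g.2).1)).symm⟩
  map_one' := Subtype.ext (Subtype.ext zMat_one)
  map_mul' g h := Subtype.ext (Subtype.ext (zMat_mul (mem_zC.1 g.2).1 (mem_zC.1 h.2).1))

theorem m24_cent_sl5 (s : S52)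
    (hs : (s : Matrix (Fin 5) (Fin 5) (ZMod 2)) = Matrix.transvection 0 1 1) :
    ∃ z : ↥M24, orderOf z = 2 ∧ Nonempty (↥(Subgroup.centralizer ({z} : Set ↥M24)) ≃*
      ↥(Subgroup.centralizer ({s} : Set S52))) := by
  haveI : Fact (Nat.Prime 2) := ⟨Nat.prime_two⟩
  refine ⟨⟨gWordPerm zW, gWordPerm_mem_M24 zW⟩, ?_, ?_⟩
  · apply orderOf_eq_prime
    · apply Subtype.ext
      rw [pow_two]
      exact Equiv.ext z_sq
    · intro h
      have h1 : gWordPerm zW = 1 := congrArg Subtype.val h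
      have h2 : gPt zF1 ∈ gO0 := (z_fix_iff _).2 (by rw [h1]; rfl)
      have h3 := (mem_gSupp _ _).1 h2
      rw [gIdx_gPt (by decide : zF1 < 24)] at h3
      exact absurd h3 (by decide +kernel)
  · have hinj : Function.Injective (zTheta s hs) := by
      rw [injective_iff_map_eq_one]
      intro g hg
      have h1 : zMat g.1 = 1 :=
        congrArg (fun y : ↥(Subgroup.centralizer ({s} : Set S52)) =>
          (y.1.1 : Matrix (Fin 5) (Fin 5) (ZMod 2))) hg
      exact Subtype.ext (zMat_ker (mem_zC.1 g.2).1 h1)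
    have hcard : Nat.card ↥(Subgroup.centralizer ({s} : Set S52)) ≤
        Nat.card ↥(fSub (zc1X :: [q10AX]) 0) := by
      rw [zc1_ok.2, ← t5_card_target]
      exact Nat.card_le_card_of_injective _ (t5phi_inj s hs)
    have hbij := hinj.bijective_of_nat_card_le hcard
    obtain ⟨e1⟩ := conj_mulEquiv
      (Subgroup.centralizer ({(⟨gWordPerm zW, gWordPerm_mem_M24 zW⟩ : ↥M24)} : Set ↥M24))
      (fSub (zc1X :: [q10AX]) 0) (fSub_le _ 0) 1 M24.one_mem (by
        intro g
        rw [Subgroup.mem_centralizer_iff]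
        have e : (1 : Equiv.Perm GolayPt)⁻¹ * (g : Equiv.Perm GolayPt) * 1 = g := by simp
        rw [e]
        constructor
        · intro h
          have h1 := h _ (Set.mem_singleton _)
          have h2 : gWordPerm zW * (g : Equiv.Perm GolayPt) =
              (g : Equiv.Perm GolayPt) * gWordPerm zW := congrArg Subtype.val h1
          exact z_comm_mem g.2 h2.symm
        · intro h k hk
          rw [Set.mem_singleton_iff] at hk
          rw [hk]
          apply Subtype.ext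
          exact (z_mem_comm h).symm)
    exact ⟨e1.trans (MulEquiv.ofBijective (zTheta s hs) hbij)⟩

end Cfsg.Agent.Helper3
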